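import Cfsg.Agent.Lib.CYN.Bas

set_option autoImplicit false
set_option linter.unusedSectionVars false
set_option linter.unusedVariables false

namespace H97.CYN

open MulAction Subgroup Matrix H51.HK
open scoped MatrixGroups

variable {G Ω : Type} [Group G] [MulAction G Ω] [Finite G] [Finite Ω] {p : ℕ} {Q : Ω → Subgroup G}

variable {a b c d : Ω} {g k w x y : G}

theorem St.K_eq (h : St p Q) (hab : a ≠ b) (hc : c ∈ Li Q a b) (hd : d ∈ Li Q a b) (hcd : c ≠ d) :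
    Kg Q c d = Kg Q a b := by
  obtain ⟨g, rfl, rfl⟩ := h.two a b c d hab hcd
  exact eq_of_le_of_card_ge (sup_le hc hd) (h.card_K_cj g a b).ge
theorem St.L_eq (h : St p Q) (hab : a ≠ b) (hc : c ∈ Li Q a b) (hd : d ∈ Li Q a b) (hcd : c ≠ d) :
    Li Q c d = Li Q a b := by
  unfold Li; rw [h.K_eq hab hc hd hcd]
theorem St.N_eq (h : St p Q) (hab : a ≠ b) (hc : c ∈ Li Q a b) (hd : d ∈ Li Q a b) (hcd : c ≠ d) :
    Ng Q c d = Ng Q a b := by
  unfold Ng; rw [h.K_eq hab hc hd hcd]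
theorem St.W_eq (h : St p Q) (hab : a ≠ b) (hc : c ∈ Li Q a b) (hd : d ∈ Li Q a b) (hcd : c ≠ d) :
    Wg Q c d = Wg Q a b := by
  unfold Wg; rw [h.K_eq hab hc hd hcd]
/-- an element normalises the line through two points that it maps into the line -/
theorem St.mem_N (h : St p Q) (hab : a ≠ b) (hc : c ∈ Li Q a b) (hd : d ∈ Li Q a b) (hcd : c ≠ d)
    (gc : g • c ∈ Li Q a b) (gd : g • d ∈ Li Q a b) : g ∈ Ng Q a b := by
  rw [← h.L_eq hab hc hd hcd] at gc gd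
  rw [← h.N_eq hab hc hd hcd]
  exact h.toFam.mem_N gc gd
/-- `N(K)` is doubly transitive on the line -/
theorem St.N_two (h : St p Q) (hab : a ≠ b) {c d c' d' : Ω} (hc : c ∈ Li Q a b) (hd : d ∈ Li Q a b)
    (hc' : c' ∈ Li Q a b) (hd' : d' ∈ Li Q a b) (e : c ≠ d) (e' : c' ≠ d') :
    ∃ g ∈ Ng Q a b, g • c = c' ∧ g • d = d' := by
  obtain ⟨g, rfl, rfl⟩ := h.two c d c' d' e e'
  exact ⟨g, h.mem_N hab hc hd e hc' hd', rfl, rfl⟩

/-- transport of the centralising property -/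
theorem Fam.bas2_cent_cj (h : Fam p Q) (hc : ∀ x ∈ Q a, g * x = x * g) (t : G) :
    ∀ y ∈ Q (t • a), t * g * t⁻¹ * y = y * (t * g * t⁻¹) := by
  intro y hy
  have h1 : t⁻¹ * y * t ∈ Q a := by
    rw [← h.cj_iff t]
    have e : t * (t⁻¹ * y * t) * t⁻¹ = y := by group
    rwa [e]
  calc t * g * t⁻¹ * y = t * (g * (t⁻¹ * y * t)) * t⁻¹ := by group
    _ = y * (t * g * t⁻¹) := by rw [hc _ h1]; group

/-- two elements of `Q a` that agree at a second point are equal -/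
theorem Fam.bas2_eq (h : Fam p Q) (hab : b ≠ a) (hx : x ∈ Q a) (hy : y ∈ Q a)
    (e : y • b = x • b) : y = x := by
  have := h.sr a b hab (x⁻¹ * y) (mul_mem (inv_mem hx) hy) (by rw [mul_smul, e, inv_smul_smul])
  exact (inv_mul_eq_one.1 this).symm

theorem bas2_W_cent (hw : w ∈ Wg Q a b) (hc : c ∈ Li Q a b) : ∀ x ∈ Q c, w * x = x * w :=
  fun x hx => (mem_Wg.1 hw x (hc hx)).symm

/-- FACT: an element centralising one `Q a` centralises `Q c` at all its fixed points -/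
theorem St.tp (h : St p Q) (hc : ∀ x ∈ Q a, g * x = x * g) : Tp Q g := by
  intro b gb
  by_cases hba : b = a
  · rw [hba]; exact hc
  have hab : a ≠ b := fun e => hba e.symm
  obtain ⟨x, hx, x1⟩ := h.ex a
  have ga : g • a = a := (h.fix_of_comm hx x1 (hc x hx)).1
  by_contra hn
  have hb' : b ≠ x • b := fun e => x1 (h.sr a b hba x hx e.symm)
  have bL := right_mem_Li Q a b
  have b'L : x • b ∈ Li Q a b := h.N_inv (Kg_le_Ng Q a b (left_mem_Li Q a b hx)) bL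
  have gb' : g • x • b = x • b := by rw [smul_smul, hc x hx, mul_smul, gb]
  obtain ⟨t, ta, tb⟩ := h.two a b b (x • b) hab hb'
  obtain ⟨g', hg'⟩ : ∃ g', g' = t * g * t⁻¹ := ⟨_, rfl⟩
  have g'b : g' • b = b := by
    rw [hg', ← ta, mul_smul, inv_smul_smul, mul_smul, ga]
  have g'b' : g' • x • b = x • b := by
    rw [hg', ← tb, mul_smul, inv_smul_smul, mul_smul, gb]
  have g'c : ∀ y ∈ Q b, g' * y = y * g' := by
    rw [hg', ← ta]; exact h.bas2_cent_cj hc t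
  have g'n : ¬ ∀ y ∈ Q (x • b), g' * y = y * g' := by
    intro hy
    have := h.bas2_cent_cj hy t⁻¹
    have e : t⁻¹ * g' * t⁻¹⁻¹ = g := by rw [hg']; group
    rw [← tb, inv_smul_smul, e] at this
    exact hn this
  have cW : g' * g * g'⁻¹ * g⁻¹ ∈ Wg Q a b := by
    rw [← h.W_eq hab bL b'L hb']
    exact h.mem_W.2 ⟨fun y hy => h.comm_cent g'b gb hy, fun y hy => h.comm_cent g'b' gb' hy⟩
  have g'N : g' ∈ Ng Q a b :=
    h.mem_N hab bL b'L hb' (by rw [g'b]; exact bL) (by rw [g'b']; exact b'L)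
  have a'L : g' • a ∈ Li Q a b := h.N_inv g'N (left_mem_Li Q a b)
  have gc' : ∀ y ∈ Q (g' • a), g * y = y * g := by
    intro y hy
    have h1 := bas2_W_cent (inv_mem cW) a'L y hy
    have h2 := h.bas2_cent_cj hc g' y hy
    calc g * y = (g' * g * g'⁻¹ * g⁻¹)⁻¹ * (g' * g * g'⁻¹ * y) := by group
      _ = (g' * g * g'⁻¹ * g⁻¹)⁻¹ * y * (g' * g * g'⁻¹) := by rw [h2, ← mul_assoc]
      _ = y * g := by rw [h1]; group
  by_cases e : a = g' • a
  · have hy : g' * x * g'⁻¹ ∈ Q a := by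
      have := h.cj g' a x hx
      rwa [← e] at this
    have e1 : g' * x * g'⁻¹ = x := by
      refine h.bas2_eq hba hx hy ?_
      rw [mul_smul, inv_smul_eq_iff.2 g'b.symm, mul_smul, g'b']
    have e2 := (h.fix_of_comm hx x1 (mul_inv_eq_iff_eq_mul.1 e1)).2
    exact g'n (bas2_W_cent (h.mem_W.2 ⟨e2, g'c⟩) b'L)
  · have : g ∈ Wg Q a b := by
      rw [← h.W_eq hab (left_mem_Li Q a b) a'L e]
      exact h.mem_W.2 ⟨hc, gc'⟩
    exact hn (bas2_W_cent this bL)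
theorem St.tp_of_W (h : St p Q) (hw : w ∈ Wg Q a b) : Tp Q w := h.tp (h.mem_W.1 hw).1
theorem Fam.W_of_tp (h : Fam p Q) (hg : Tp Q g) (ga : g • a = a) (gb : g • b = b) :
    g ∈ Wg Q a b := h.mem_W.2 ⟨hg a ga, hg b gb⟩
theorem Fam.fix_Li (h : Fam p Q) (hg : Tp Q g) (ga : g • a = a) (gb : g • b = b)
    (hc : c ∈ Li Q a b) : g • c = c := by
  obtain ⟨x, hx, x1⟩ := h.ex c
  exact (h.fix_of_comm hx x1 (bas2_W_cent (h.W_of_tp hg ga gb) hc x hx)).1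
theorem Fam.cl_fix (h : Fam p Q) {Y : Set G} (hY : ∀ g ∈ Y, Tp Q g) : Cl Q (Fx Ω Y) :=
  fun _ ha _ hb _ hc y hy => h.fix_Li (hY y hy) (ha y hy) (hb y hy) hc
theorem Fam.tp_cj (h : Fam p Q) (hg : Tp Q g) (k : G) : Tp Q (k * g * k⁻¹) := by
  intro c hc
  have e : g • k⁻¹ • c = k⁻¹ • c := by
    rw [eq_inv_smul_iff, smul_smul, smul_smul, hc]
  have := h.bas2_cent_cj (hg _ e) k
  rwa [smul_inv_smul] at this
theorem St.col_W (h : St p Q) (hc : Col Q) (hab : a ≠ b) : Wg Q a b = ⊥ :=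
  eq_bot_iff.2 fun w hw => h.faith w fun x => (h.W_iff hab).1 hw x (hc a b hab x)
theorem St.not_col (h : St p Q) (hc : ¬ Col Q) (hab : a ≠ b) : ∃ c, c ∉ Li Q a b := by
  by_contra hn
  refine hc fun a' b' hab' c => ?_
  obtain ⟨g, rfl, rfl⟩ := h.two a' b' a b hab' hab
  rw [← h.L_cj g]
  exact by_contra fun e => hn ⟨_, e⟩
theorem St.two' (h : St p Q) : IsMultiplyPretransitive G Ω 2 :=
  is_two_pretransitive_iff.2 fun {a b c d} e e' => h.two a b c d e e'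
theorem St.faithful (h : St p Q) : FaithfulSMul G Ω :=
  ⟨fun {m n} e => (inv_mul_eq_one.1 (h.faith (n⁻¹ * m) fun x => by
    rw [mul_smul, e, inv_smul_smul])).symm⟩
theorem St.three (h : St p Q) : 3 ≤ Nat.card Ω := by
  obtain ⟨a, b, hab⟩ := h.nt
  have h1 := (h.ncard_L hab).2
  have h2 := Set.ncard_le_card (Li Q a b)
  have h3 := h.three_le
  omega
/-- a non-trivial normal subgroup is transitive -/
theorem St.tr_of_normal (h : St p Q) {M : Subgroup G} (hM : M.Normal) (h1 : M ≠ ⊥) (a b : Ω) :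
    ∃ m ∈ M, m • a = b := by
  by_cases hab : a = b
  · exact ⟨1, one_mem _, by rw [one_smul, hab]⟩
  obtain ⟨m, hm, c, hc⟩ : ∃ m ∈ M, ∃ c : Ω, c ≠ m • c := by
    by_contra hn
    exact h1 (eq_bot_iff.2 fun m hm => h.faith m fun c =>
      by_contra fun e => hn ⟨m, hm, c, fun e' => e e'.symm⟩)
  obtain ⟨g, rfl, rfl⟩ := h.two c (m • c) a b hc hab
  exact ⟨g * m * g⁻¹, hM.conj_mem m hm g, by rw [mul_smul, inv_smul_smul, mul_smul]⟩
/-- a non-trivial solvable normal subgroup gives a regular normal subgroup -/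
theorem St.rns_of_solv (h : St p Q) {M : Subgroup G} (hM : M.Normal) (h1 : M ≠ ⊥)
    (hs : Group.IsSolvable M) : RNS G Ω := by
  obtain ⟨A, ⟨nA, A1, AM⟩, hmin⟩ := (wellFounded_lt (α := Subgroup G)).has_min
    {A : Subgroup G | A.Normal ∧ A ≠ ⊥ ∧ A ≤ M} ⟨M, hM, h1, le_rfl⟩
  have sA : Group.IsSolvable A := Group.isSolvable_of_isSolvable_injective (inclusion_injective AM)
  have nt : Nontrivial A := (nontrivial_iff_ne_bot A).2 A1
  have lt : ⁅A, A⁆ < A := by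
    have h2 := Group.IsSolvable.commutator_lt_top_of_nontrivial A
    rw [← map_subtype_commutator]
    refine lt_of_le_of_ne (map_subtype_le _) fun e => h2.ne ?_
    apply Subgroup.map_injective A.subtype_injective
    rw [e, ← MonoidHom.range_eq_map, range_subtype]
  have hb : ⁅A, A⁆ = ⊥ := by
    by_contra hn
    exact hmin _ ⟨commutator_normal A A, hn, lt.le.trans AM⟩ lt
  have cA := commutator_eq_bot_iff_le_centralizer.1 hb
  refine ⟨A, nA, h.tr_of_normal nA A1, fun x n hn e => h.faith n fun y => ?_⟩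
  obtain ⟨m, hm, rfl⟩ := h.tr_of_normal nA A1 x y
  rw [smul_smul, cA hm n hn, mul_smul, e]

/-! the faithful image on an invariant set -/

theorem exists_im {N : Subgroup G} {Δ : Set Ω} (hi : ∀ g ∈ N, ∀ x ∈ Δ, g • x ∈ Δ) :
    ∃ (X : Type) (_ : Group X) (_ : Finite X) (_ : MulAction X Δ) (f : N →* X), Im N Δ f := by
  let _ : MulAction N Δ :=
    { smul := fun g x => ⟨(g : G) • (x : Ω), hi g g.2 x x.2⟩
      one_smul := fun x => Subtype.ext (one_smul G (x : Ω))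
      mul_smul := fun g g' x => Subtype.ext (mul_smul (g : G) (g' : G) (x : Ω)) }
  exact ⟨(toPermHom N Δ).range, inferInstance, inferInstance, inferInstance,
    (toPermHom N Δ).rangeRestrict, hi, MonoidHom.rangeRestrict_surjective _, fun _ _ => rfl,
    fun g t => Subtype.ext (Equiv.ext t)⟩

variable {N : Subgroup G} {Δ : Set Ω} {X : Type} [Group X] [MulAction X Δ] {f : N →* X}

theorem Im.smul_iff (i : Im N Δ f) (g : N) (x y : Δ) : f g • x = y ↔ (g : G) • (x : Ω) = y := by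
  rw [Subtype.ext_iff, i.act]
theorem Im.one_iff (i : Im N Δ f) (g : N) : f g = 1 ↔ Tr Δ (g : G) :=
  ⟨fun e x hx => (i.smul_iff g ⟨x, hx⟩ ⟨x, hx⟩).1 (by rw [e, one_smul]),
    fun e => i.faith _ fun x => (i.smul_iff g x x).2 (e x x.2)⟩
theorem Im.fam (i : Im N Δ f) (h : Fam p Q) (hle : ∀ c ∈ Δ, Q c ≤ N) (h2 : Δ.Nontrivial) :
    Fam p (Qi Q f : Δ → Subgroup X) where
  pr := h.pr
  od := h.od
  card c := by
    rw [← h.card c]
    symm
    refine Nat.card_eq_of_bijective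
      (fun x : Q c => (⟨f ⟨x, hle c c.2 x.2⟩, mem_Qi.2 ⟨_, x.2, rfl⟩⟩ : Qi Q f c)) ⟨?_, ?_⟩
    · intro x y e
      obtain ⟨d, hd, hdc⟩ := h2.exists_ne c
      have e1 : f ⟨x, hle c c.2 x.2⟩ = f ⟨y, hle c c.2 y.2⟩ := congrArg Subtype.val e
      refine Subtype.ext (h.bas2_eq hdc y.2 x.2 ?_)
      exact (i.act ⟨x, hle c c.2 x.2⟩ ⟨d, hd⟩).symm.trans
        (e1 ▸ i.act ⟨y, hle c c.2 y.2⟩ ⟨d, hd⟩)
    · rintro ⟨x, hx⟩
      obtain ⟨g, hg, rfl⟩ := mem_Qi.1 hx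
      exact ⟨⟨g, hg⟩, rfl⟩
  fix c x hx := by
    obtain ⟨g, hg, rfl⟩ := mem_Qi.1 hx
    exact (i.smul_iff g c c).2 (h.fix c g hg)
  cj g c x hx := by
    obtain ⟨g, rfl⟩ := i.surj g
    obtain ⟨y, hy, rfl⟩ := mem_Qi.1 hx
    refine mem_Qi.2 ⟨g * y * g⁻¹, ?_, by rw [map_mul, map_mul, map_inv]⟩
    rw [i.act]
    exact h.cj g c y hy
  sr a b hab x hx e := by
    obtain ⟨g, hg, rfl⟩ := mem_Qi.1 hx
    have : g = 1 := Subtype.ext
      (h.sr a b (fun e => hab (Subtype.ext e)) g hg ((i.smul_iff g b b).1 e))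
    rw [this, map_one]
theorem Im.st (i : Im N Δ f) (h : Fam p Q) (hle : ∀ c ∈ Δ, Q c ≤ N) (h2 : Δ.Nontrivial)
    (ht : ∀ a ∈ Δ, ∀ b ∈ Δ, ∀ c ∈ Δ, ∀ d ∈ Δ, a ≠ b → c ≠ d → ∃ g ∈ N, g • a = c ∧ g • b = d) :
    St p (Qi Q f : Δ → Subgroup X) where
  toFam := i.fam h hle h2
  faith := i.faith
  two a b c d e e' := by
    obtain ⟨g, hg, h1, h3⟩ := ht a a.2 b b.2 c c.2 d d.2 (fun k => e (Subtype.ext k))
      (fun k => e' (Subtype.ext k))
    exact ⟨f ⟨g, hg⟩, (i.smul_iff _ a c).2 h1, (i.smul_iff _ b d).2 h3⟩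
  nt := h2.coe_sort
theorem Im.mem_K (i : Im N Δ f) (hle : ∀ c ∈ Δ, Q c ≤ N) {a b : Δ} {x : X} :
    x ∈ Kg (Qi Q f : Δ → Subgroup X) a b ↔ ∃ g : N, (g : G) ∈ Kg Q a b ∧ f g = x := by
  have e : Kg (Qi Q f : Δ → Subgroup X) a b = ((Kg Q a b).subgroupOf N).map f := by
    unfold Kg Qi
    rw [subgroupOf_sup (hle a a.2) (hle b b.2), Subgroup.map_sup]
  rw [e]
  exact ⟨fun ⟨g, h, e⟩ => ⟨g, h, e⟩, fun ⟨g, h, e⟩ => ⟨g, h, e⟩⟩
theorem Im.mem_Lt (i : Im N Δ f) (hle : ∀ c ∈ Δ, Q c ≤ N) {x : X} :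
    x ∈ Lt Set.univ (Qi Q f : Δ → Subgroup X) ↔ ∃ g : N, (g : G) ∈ Lt Δ Q ∧ f g = x := by
  constructor
  · intro hx
    have : Lt Set.univ (Qi Q f : Δ → Subgroup X) ≤ ((Lt Δ Q).subgroupOf N).map f := by
      refine iSup₂_le fun c _ y hy => ?_
      obtain ⟨g, hg, rfl⟩ := mem_Qi.1 hy
      exact ⟨g, le_iSup₂ (f := fun c (_ : c ∈ Δ) => Q c) (c : Ω) c.2 hg, rfl⟩
    obtain ⟨g, hg, e⟩ := this hx
    exact ⟨g, hg, e⟩
  · rintro ⟨g, hg, rfl⟩
    have : Lt Δ Q ≤ ((Lt Set.univ (Qi Q f : Δ → Subgroup X)).comap f).map N.subtype := by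
      refine iSup₂_le fun c hc y hy => ⟨⟨y, hle c hc hy⟩, ?_, rfl⟩
      exact le_iSup₂ (f := fun (c : Δ) (_ : c ∈ Set.univ) => (Qi Q f c : Subgroup X)) ⟨c, hc⟩
        trivial (mem_Qi.2 ⟨_, hy, rfl⟩)
    obtain ⟨g', hg', e⟩ := this hg
    obtain rfl : g' = g := Subtype.ext e
    exact hg'
/-- lines of the image are the lines -/
theorem Im.mem_L (i : Im N Δ f) (h : Fam p Q) (hle : ∀ c ∈ Δ, Q c ≤ N) (hcl : Cl Q Δ) {a b c : Δ}
    (hab : a ≠ b) : c ∈ Li (Qi Q f : Δ → Subgroup X) a b ↔ (c : Ω) ∈ Li Q a b := by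
  constructor
  · intro hc
    by_contra hn
    have hinv : ∀ x ∈ Q c, ∀ d ∈ Li Q a b, x • d ∈ Li Q a b := by
      intro x hx d hd
      obtain ⟨k, hk, e⟩ := (i.mem_K hle).1 (hc (mem_Qi.2 ⟨⟨x, hle c c.2 hx⟩, hx, rfl⟩))
      have dΔ : d ∈ Δ := hcl a a.2 b b.2 hd
      have e1 : x • d = (k : G) • d :=
        (i.act ⟨x, hle c c.2 hx⟩ ⟨d, dΔ⟩).symm.trans (e ▸ i.act k ⟨d, dΔ⟩)
      rw [e1]
      exact h.N_inv (Kg_le_Ng Q a b hk) hd
    have h1 := Nat.mod_eq_zero_of_dvd ((h.ncard_mod hinv).2 hn)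
    have h3 := (h.ncard_L (fun e => hab (Subtype.ext e) : (a : Ω) ≠ b)).1
    omega
  · intro hc x hx
    obtain ⟨g, hg, rfl⟩ := mem_Qi.1 hx
    exact (i.mem_K hle).2 ⟨g, hc hg, rfl⟩
/-- the kernel centralises the groups `Q c`, `c ∈ Δ` -/
theorem Fam.ker_cent (h : Fam p Q) (h2 : Δ.Nontrivial) (hw : Tr Δ w) (hc : c ∈ Δ)
    (hi : ∀ x ∈ Q c, ∀ d ∈ Δ, x • d ∈ Δ) (hx : x ∈ Q c) : w * x = x * w := by
  obtain ⟨d, hd, hdc⟩ := h2.exists_ne c
  have hy : w * x * w⁻¹ ∈ Q c := by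
    have := h.cj w c x hx
    rwa [hw c hc] at this
  refine mul_inv_eq_iff_eq_mul.1 (h.bas2_eq hdc hx hy ?_)
  rw [mul_smul, inv_smul_eq_iff.2 (hw d hd).symm, mul_smul, hw _ (hi x hx d hd)]

end H97.CYN
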