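import Cfsg.Agent.Lib.CYN.Bas2
import Cfsg.Agent.Lib.CYB.BR

set_option autoImplicit false
set_option linter.unusedSectionVars false

namespace H83.CYB

open Subgroup H69 H45.DSC
open scoped commutatorElement

variable {G : Type} [Group G] [Finite G] {D : Set G} {x y : G}

/-- for `p = 3` the derived group of a line has at most four cosets of its centre -/
theorem BS0.four_cosets (h : BS0 D 3) (hx : x ∈ D) (hy : y ∈ D) :
    ∃ e f : G, ∀ r ∈ W (gn x y), ∃ z : G, Commute z x ∧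
      (r = z ∨ r = e * z ∨ r = f * z ∨ r = e * f * z) := by
  obtain ⟨y', hy', hy'D, hp⟩ := h.par x hx y hy
  have hg := h.good_gn hx hy
  have hxl := left_mem_gn x y
  have hy'l : y' ∈ gn x y := (le_sup_right : zpowers y ≤ gn x y) hy'
  have hxg : x ∈ gen D (gn x y) := mem_gen hx hxl
  have hxn : x ∈ 𝐍(P D (gn x y)) := norm_P (le_normalizer hxg)
  obtain ⟨e, he⟩ : ∃ e, e = x⁻¹ * y' := ⟨_, rfl⟩
  have heP : e ∈ P D (gn x y) := he ▸ hp.mem_P hx hy'D hxl hy'l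
  obtain ⟨f, hf⟩ : ∃ f, f = x * e * x⁻¹ := ⟨_, rfl⟩
  have hfP : f ∈ P D (gn x y) := hf ▸ (mem_normalizer_iff.1 hxn e).1 heP
  have x3 : x ^ 3 = 1 := by rw [← h.ord x hx]; exact pow_orderOf_eq_one x
  have y3 : y' ^ 3 = 1 := by rw [← h.ord y' hy'D]; exact pow_orderOf_eq_one y'
  have hZ : ∀ z ∈ Z D (gn x y), ∀ a ∈ P D (gn x y), Commute a z := fun z hz a ha =>
    Z_le_cent hz a (P_le_gen ha)
  have hZx : ∀ z ∈ Z D (gn x y), Commute z x := fun z hz => (mem_Z.1 hz).2 x hx hxl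
  have hmul : ∀ (i j k l : ℕ), ∀ z ∈ Z D (gn x y), ∀ z' ∈ Z D (gn x y), ∃ z'' ∈ Z D (gn x y),
      e ^ i * f ^ j * z * (e ^ k * f ^ l * z') = e ^ (i + k) * f ^ (j + l) * z'' := by
    intro i j k l z hz z' hz'
    have hc := h.comm_mem hg (pow_mem hfP j) (pow_mem heP k)
    refine ⟨⁅f ^ j, e ^ k⁆ * z * z', mul_mem (mul_mem hc hz) hz', ?_⟩
    have c1 := hZ z hz _ (mul_mem (pow_mem heP k) (pow_mem hfP l))
    have c2 := hZ _ hc _ (mul_mem (mul_mem (pow_mem heP k) (pow_mem hfP j)) (pow_mem hfP l))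
    calc e ^ i * f ^ j * z * (e ^ k * f ^ l * z')
        = e ^ i * f ^ j * (z * (e ^ k * f ^ l)) * z' := by group
      _ = e ^ i * (⁅f ^ j, e ^ k⁆ * (e ^ k * f ^ j * f ^ l)) * z * z' := by
        rw [← c1.eq, commutatorElement_def]; group
      _ = _ := by rw [← c2.eq, pow_add, pow_add]; group
  let X : Subgroup G :=
    { carrier := {g | ∃ i j : ℕ, ∃ z ∈ Z D (gn x y), g = e ^ i * f ^ j * z}
      one_mem' := ⟨0, 0, 1, one_mem _, by simp⟩
      mul_mem' := by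
        rintro _ _ ⟨i, j, z, hz, rfl⟩ ⟨k, l, z', hz', rfl⟩
        obtain ⟨z'', h1, h2⟩ := hmul i j k l z hz z' hz'
        exact ⟨_, _, z'', h1, h2⟩
      inv_mem' := by
        rintro _ ⟨i, j, z, hz, rfl⟩
        have h4 := h.pow4 hg (mul_mem (mul_mem (pow_mem heP i) (pow_mem hfP j)) (Z_le_P hz))
        obtain ⟨z1, h1, h2⟩ := hmul i j i j z hz z hz
        obtain ⟨z2, h3, h5⟩ := hmul (i + i) (j + j) i j z1 h1 z hz
        refine ⟨i + i + i, j + j + j, z2, h3, ?_⟩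
        rw [← h5, ← h2, eq_comm, ← mul_eq_one_iff_eq_inv, ← h4]
        simp only [pow_succ, pow_zero, one_mul] }
  have heX : e ∈ X := ⟨1, 0, 1, one_mem _, by simp⟩
  have hfX : f ∈ X := ⟨0, 1, 1, one_mem _, by simp⟩
  have hXP : X ≤ P D (gn x y) := by
    rintro _ ⟨i, j, z, hz, rfl⟩
    exact mul_mem (mul_mem (pow_mem heP i) (pow_mem hfP j)) (Z_le_P hz)
  have hxf : x * f * x⁻¹ = f⁻¹ * e⁻¹ := by
    have e1 : y' = x * e := by rw [he]; group
    have e2 : f * (x * f * x⁻¹) * x ^ 3 * e = y' ^ 3 := by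
      rw [e1, hf]; simp only [pow_succ, pow_zero, one_mul]; group
    rw [x3, y3, mul_one] at e2
    calc x * f * x⁻¹ = f⁻¹ * (f * (x * f * x⁻¹) * e) * e⁻¹ := by group
      _ = _ := by rw [e2, mul_one]
  have hxX : x ∈ 𝐍(X) := by
    refine mem_normalizer_fintype ?_
    rintro _ ⟨i, j, z, hz, rfl⟩
    have e1 : x * (e ^ i * f ^ j * z) * x⁻¹ =
        (x * e * x⁻¹) ^ i * (x * f * x⁻¹) ^ j * (x * z * x⁻¹) := by
      rw [conj_pow, conj_pow]; group
    rw [e1, ← hf, hxf, ← (hZx z hz).eq, mul_inv_cancel_right]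
    exact mul_mem (mul_mem (pow_mem hfX i) (pow_mem (mul_mem (inv_mem hfX) (inv_mem heX)) j))
      ⟨0, 0, z, hz, by simp⟩
  have hle : gn x y ≤ X ⊔ zpowers x := by
    have h1 : x ∈ X ⊔ zpowers x := mem_sup_right (mem_zpowers x)
    have h2 : y' ∈ X ⊔ zpowers x := by
      have e1 : y' = x * e := by rw [he]; group
      rw [e1]; exact mul_mem h1 (mem_sup_left heX)
    refine sup_le (zpowers_le.2 h1) ?_
    rw [← h.zp_eq hy hy' (h.ne_one hy'D)]
    exact zpowers_le.2 h2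
  refine ⟨e, f, fun r hr => ?_⟩
  have hrP : r ∈ P D (gn x y) := by rwa [P_gn hx hy]
  obtain ⟨a, ha, b, hb, rfl⟩ : ∃ a ∈ X, ∃ b ∈ zpowers x, a * b = r := by
    have := hle (W_le _ hr)
    rw [← SetLike.mem_coe, coe_mul_of_right_le_normalizer_left _ _ (zpowers_le.2 hxX)] at this
    obtain ⟨a, ha, b, hb, e⟩ := this
    exact ⟨a, ha, b, hb, e⟩
  have hb1 : b = 1 := h.eq_one_of_two hx hb hg
    (by have := mul_mem (inv_mem (hXP ha)) hrP; rwa [inv_mul_cancel_left] at this)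
  subst hb1
  obtain ⟨i, j, z, hz, rfl⟩ := ha
  have he2 := pow_mem (h.sq_mem hg heP) (i / 2)
  have hf2 := pow_mem (h.sq_mem hg hfP) (j / 2)
  refine ⟨(e ^ 2) ^ (i / 2) * (f ^ 2) ^ (j / 2) * z, hZx _ (mul_mem (mul_mem he2 hf2) hz), ?_⟩
  have c1 := hZ _ he2 _ (pow_mem hfP (j % 2))
  have key : e ^ i * f ^ j * z * 1 =
      e ^ (i % 2) * f ^ (j % 2) * ((e ^ 2) ^ (i / 2) * (f ^ 2) ^ (j / 2) * z) := by
    have ei : e ^ i = e ^ (i % 2) * (e ^ 2) ^ (i / 2) := by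
      rw [← pow_mul, ← pow_add, Nat.mod_add_div]
    have ej : f ^ j = f ^ (j % 2) * (f ^ 2) ^ (j / 2) := by
      rw [← pow_mul, ← pow_add, Nat.mod_add_div]
    calc e ^ i * f ^ j * z * 1
        = e ^ (i % 2) * ((e ^ 2) ^ (i / 2) * f ^ (j % 2)) * (f ^ 2) ^ (j / 2) * z := by
          conv_lhs => rw [ei, ej]
          simp only [mul_assoc, mul_one]
      _ = _ := by rw [← c1.eq]; simp only [mul_assoc]
  rw [key]
  rcases Nat.mod_two_eq_zero_or_one i with hi | hi <;>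
    rcases Nat.mod_two_eq_zero_or_one j with hj | hj <;> simp [hi, hj]

end H83.CYB

namespace H97.CYN

open MulAction Subgroup Matrix H51.HK H83.CYB H45.DSC
open scoped MatrixGroups

variable {G Ω : Type} [Group G] [MulAction G Ω] [Finite G] [Finite Ω] {p : ℕ} {Q : Ω → Subgroup G}

theorem St.caseB (h : St p Q) (hB : CaseB Q) (hn : ¬ Col Q) :
    RNS G Ω ∨ (p = 3 ∧ (∀ a b : Ω, a ≠ b → (Li Q a b).ncard = 4) ∧ Zl Q) := by
  obtain ⟨h3, hZ⟩ := H83.CYB.caseB h hB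
  refine Or.inr ⟨h3, fun a b hab => ?_, hZ⟩
  subst h3
  have h0 := bs0_of h hB
  have hF := h.toFam
  obtain ⟨x, hx, hx1⟩ := hF.ex a
  obtain ⟨y, hy, hy1⟩ := hF.ex b
  have hxD : x ∈ DQ Q := ⟨hx1, a, hx⟩
  have hyD : y ∈ DQ Q := ⟨hy1, b, hy⟩
  have hK : Kg Q a b = gn x y := by unfold Kg; rw [hF.gen hx hx1, hF.gen hy hy1]
  obtain ⟨e, f, hef⟩ := h0.four_cosets hxD hyD
  refine le_antisymm ?_ (hF.ncard_L hab).2
  have hsub : Li Q a b ⊆ {a, e • a, f • a, (e * f) • a} := by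
    intro c hc
    obtain ⟨v, hv, hv1⟩ := hF.ex c
    obtain ⟨v', hv', hv'D, hp⟩ := h0.par x hxD v ⟨hv1, c, hv⟩
    have hv'c : v' ∈ Q c := by rw [hF.gen hv hv1]; exact hv'
    obtain ⟨r, hr, e1⟩ := h0.conj_of_par hxD hv'D hp
    have hle : gn x v' ≤ gn x y := gn_le (left_mem_gn x y) (hK ▸ hc hv'c)
    have hc' : c = r • a := hF.eq_of_mem hv'c (e1 ▸ hF.cj r a x hx) hv'D.1
    obtain ⟨z, hz, hh⟩ := hef r (commutator_mono hle hle hr)
    have za : z • a = a := (hF.fix_of_comm hx hx1 hz.eq).1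
    rcases hh with e2 | e2 | e2 | e2 <;> rw [hc', e2] <;> simp [mul_smul, za]
  refine (Set.ncard_le_ncard hsub).trans ?_
  refine (Set.ncard_insert_le _ _).trans (Nat.succ_le_succ ?_)
  refine (Set.ncard_insert_le _ _).trans (Nat.succ_le_succ ?_)
  refine (Set.ncard_insert_le _ _).trans (Nat.succ_le_succ ?_)
  rw [Set.ncard_singleton]

end H97.CYN
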