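import Cfsg.Agent.Lib.CYN.Defs

set_option autoImplicit false
set_option linter.unusedSectionVars false
set_option linter.unusedVariables false

namespace H97.CYN

open MulAction Subgroup Matrix H51.HK
open scoped MatrixGroups H69

variable {G Ω : Type} [Group G] [MulAction G Ω] [Finite G] [Finite Ω] {p : ℕ} {Q : Ω → Subgroup G}

variable {a b c d : Ω} {g k w x y : G}

theorem Fam.cj_iff (h : Fam p Q) (g x : G) (a : Ω) : g * x * g⁻¹ ∈ Q (g • a) ↔ x ∈ Q a := by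
  refine ⟨fun e => ?_, h.cj g a x⟩
  have := h.cj g⁻¹ _ _ e
  rw [inv_smul_smul] at this
  convert this using 1
  group

theorem Fam.pow_eq (h : Fam p Q) (hx : x ∈ Q a) : x ^ p = 1 := by
  have := pow_card_eq_one' (G := Q a) (x := ⟨x, hx⟩)
  rw [h.card a] at this
  exact congrArg Subtype.val this

theorem Fam.orderOf_eq (h : Fam p Q) (hx : x ∈ Q a) (h1 : x ≠ 1) : orderOf x = p :=
  haveI := Fact.mk h.pr
  orderOf_eq_prime (h.pow_eq hx) h1

theorem Fam.gen (h : Fam p Q) (hx : x ∈ Q a) (h1 : x ≠ 1) : Q a = zpowers x := by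
  refine (eq_of_le_of_card_ge (zpowers_le.2 hx) ?_).symm
  rw [h.card a, Nat.card_zpowers, h.orderOf_eq hx h1]

theorem Fam.ex (h : Fam p Q) (a : Ω) : ∃ x ∈ Q a, x ≠ 1 := by
  by_contra hc
  have e : Q a = ⊥ := (eq_bot_iff_forall _).2 fun x hx => by
    by_contra h1
    exact hc ⟨x, hx, h1⟩
  have := h.card a
  rw [e, card_bot] at this
  exact h.pr.one_lt.ne this

theorem Fam.comm (h : Fam p Q) (hx : x ∈ Q a) (hy : y ∈ Q a) : x * y = y * x := by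
  obtain ⟨z, hz, h1⟩ := h.ex a
  rw [h.gen hz h1] at hx hy
  obtain ⟨m, rfl⟩ := mem_zpowers_iff.1 hx
  obtain ⟨n, rfl⟩ := mem_zpowers_iff.1 hy
  exact zpow_mul_comm z m n

theorem Fam.eq_of_mem (h : Fam p Q) (ha : x ∈ Q a) (hb : x ∈ Q b) (h1 : x ≠ 1) : a = b := by
  by_contra hne
  exact h1 (h.sr a b (Ne.symm hne) x ha (h.fix b x hb))

theorem Fam.odd (h : Fam p Q) : Odd p := h.pr.odd_of_ne_two h.od

theorem Fam.three_le (h : Fam p Q) : 3 ≤ p := by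
  have h1 := h.pr.two_le
  have h2 := h.od
  omega

/-- an element commuting with `1 ≠ x ∈ Q a` fixes `a` and centralises `Q a` -/
theorem Fam.fix_of_comm (h : Fam p Q) (hx : x ∈ Q a) (h1 : x ≠ 1) (e : g * x = x * g) :
    g • a = a ∧ ∀ y ∈ Q a, g * y = y * g := by
  constructor
  · have := h.cj g a x hx
    rw [e, mul_inv_cancel_right] at this
    exact h.eq_of_mem this hx h1
  · intro y hy
    rw [h.gen hx h1] at hy
    obtain ⟨m, rfl⟩ := mem_zpowers_iff.1 hy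
    exact (Commute.zpow_right e m).eq

/-- the action on `Q a` of an element fixing `a` -/
theorem Fam.type (h : Fam p Q) (ga : g • a = a) :
    ∃ n : ℕ, n.Coprime p ∧ ∀ x ∈ Q a, g * x * g⁻¹ = x ^ n := by
  obtain ⟨z, hz, h1⟩ := h.ex a
  have h2 := h.cj g a z hz
  rw [ga, h.gen hz h1, ← mem_powers_iff_mem_zpowers] at h2
  obtain ⟨n, hn⟩ := h2
  replace hn : z ^ n = g * z * g⁻¹ := hn
  refine ⟨n, ((h.pr.coprime_iff_not_dvd).2 ?_).symm, fun x hx => ?_⟩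
  · rintro ⟨m, rfl⟩
    rw [pow_mul, h.pow_eq hz, one_pow] at hn
    exact h1 (conj_eq_one_iff.1 hn.symm)
  · rw [h.gen hz h1] at hx
    obtain ⟨m, rfl⟩ := mem_zpowers_iff.1 hx
    rw [← conj_zpow, ← hn, ← _root_.zpow_natCast, ← _root_.zpow_natCast, zpow_comm]

/-- commutators of the stabiliser centralise `Q a` -/
theorem Fam.comm_cent (h : Fam p Q) (ga : g • a = a) (ka : k • a = a) (hx : x ∈ Q a) :
    g * k * g⁻¹ * k⁻¹ * x = x * (g * k * g⁻¹ * k⁻¹) := by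
  obtain ⟨n, -, hn⟩ := h.type ga
  obtain ⟨m, -, hm⟩ := h.type ka
  have hy : (k * g)⁻¹ * x * (k * g) ∈ Q a := by
    rw [← h.cj_iff (k * g), mul_smul, ga, ka]
    convert hx using 1
    group
  generalize hz : (k * g)⁻¹ * x * (k * g) = z at hy
  have hxz : x = k * (g * z * g⁻¹) * k⁻¹ := by rw [← hz]; group
  have e : g * (k * z * k⁻¹) * g⁻¹ = k * (g * z * g⁻¹) * k⁻¹ := by
    rw [hm z hy, hn z hy, hn _ (pow_mem hy m), hm _ (pow_mem hy n), ← pow_mul, ← pow_mul, mul_comm]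
  calc g * k * g⁻¹ * k⁻¹ * x = g * (k * z * k⁻¹) * g⁻¹ * (g * k * g⁻¹ * k⁻¹) := by rw [hxz]; group
    _ = x * (g * k * g⁻¹ * k⁻¹) := by rw [e, ← hxz]

/-- an element whose square centralises `Q a` centralises or inverts it -/
theorem Fam.cent_or_inv (h : Fam p Q) (ga : g • a = a) (h2 : ∀ x ∈ Q a, g * g * x = x * (g * g)) :
    (∀ x ∈ Q a, g * x = x * g) ∨ ∀ x ∈ Q a, g * x * g⁻¹ = x⁻¹ := by
  obtain ⟨n, -, hn⟩ := h.type ga
  obtain ⟨z, hz, h1⟩ := h.ex a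
  have e : z ^ (n * n) = z := by
    rw [pow_mul, ← hn _ (pow_mem hz n), ← hn z hz]
    calc g * (g * z * g⁻¹) * g⁻¹ = g * g * z * (g * g)⁻¹ := by group
      _ = z := by rw [h2 z hz, mul_inv_cancel_right]
  have e2 : z ^ (((n : ℤ) - 1) * ((n : ℤ) + 1)) = 1 := by
    have : ((n : ℤ) - 1) * ((n : ℤ) + 1) = ((n * n : ℕ) : ℤ) - 1 := by push_cast; ring
    rw [this, _root_.zpow_sub, _root_.zpow_natCast, e, _root_.zpow_one, mul_inv_cancel]
  rw [← orderOf_dvd_iff_zpow_eq_one, h.orderOf_eq hz h1] at e2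
  have hp : ∀ x ∈ Q a, ∀ m : ℤ, (p : ℤ) ∣ m → x ^ m = 1 := by
    rintro x hx m ⟨t, rfl⟩
    rw [_root_.zpow_mul, _root_.zpow_natCast, h.pow_eq hx, _root_.one_zpow]
  rcases (Nat.prime_iff_prime_int.1 h.pr).dvd_or_dvd e2 with e3 | e3
  · refine Or.inl fun x hx => ?_
    have := hp x hx _ e3
    rw [_root_.zpow_sub, _root_.zpow_natCast, _root_.zpow_one, mul_inv_eq_one, ← hn x hx, mul_inv_eq_iff_eq_mul] at this
    exact this
  · refine Or.inr fun x hx => ?_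
    have := hp x hx _ e3
    rw [_root_.zpow_add, _root_.zpow_natCast, _root_.zpow_one, mul_eq_one_iff_eq_inv, ← hn x hx] at this
    exact this

theorem Fam.x_Q (h : Fam p Q) (g : G) (a : Ω) : Q (g • a) = Q a ^ᶜ g := by
  ext y
  rw [H69.mem_cj, ← h.cj_iff g (g⁻¹ * y * g) a]
  have : g * (g⁻¹ * y * g) * g⁻¹ = y := by group
  rw [this]

theorem Fam.x_K (h : Fam p Q) (g : G) (a b : Ω) : Kg Q (g • a) (g • b) = Kg Q a b ^ᶜ g := by
  unfold Kg
  rw [H69.cj_sup, h.x_Q, h.x_Q]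

theorem Fam.K_cj (h : Fam p Q) (g k : G) (a b : Ω) :
    g * k * g⁻¹ ∈ Kg Q (g • a) (g • b) ↔ k ∈ Kg Q a b := by
  rw [h.x_K, H69.cj_mem_iff]

theorem Fam.L_cj (h : Fam p Q) (g : G) (a b c : Ω) :
    g • c ∈ Li Q (g • a) (g • b) ↔ c ∈ Li Q a b := by
  rw [mem_Li, mem_Li, h.x_K, h.x_Q, H69.cj_le_cj_iff]

theorem Fam.N_cj (h : Fam p Q) (g k : G) (a b : Ω) :
    g * k * g⁻¹ ∈ Ng Q (g • a) (g • b) ↔ k ∈ Ng Q a b := by
  unfold Ng
  rw [h.x_K, ← H69.cj_normalizer, H69.cj_mem_iff]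

theorem Fam.W_cj (h : Fam p Q) (g k : G) (a b : Ω) :
    g * k * g⁻¹ ∈ Wg Q (g • a) (g • b) ↔ k ∈ Wg Q a b := by
  unfold Wg
  rw [h.x_K, ← H69.cj_centralizer, H69.cj_mem_iff]

theorem Fam.card_K_cj (h : Fam p Q) (g : G) (a b : Ω) :
    Nat.card (Kg Q (g • a) (g • b)) = Nat.card (Kg Q a b) := by
  rw [h.x_K, H69.card_cj]

theorem Fam.ncard_L_cj (h : Fam p Q) (g : G) (a b : Ω) :
    (Li Q (g • a) (g • b)).ncard = (Li Q a b).ncard := by
  rw [← Set.ncard_image_of_injective (Li Q a b) (MulAction.injective g)]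
  congr 1
  ext c
  constructor
  · intro hc
    refine ⟨g⁻¹ • c, (h.L_cj g a b _).1 ?_, smul_inv_smul g c⟩
    rwa [smul_inv_smul]
  · rintro ⟨c, hc, rfl⟩
    exact (h.L_cj g a b c).2 hc

theorem Fam.N_inv (h : Fam p Q) (hg : g ∈ Ng Q a b) (hc : c ∈ Li Q a b) : g • c ∈ Li Q a b := by
  rw [mem_Li, h.x_Q]
  exact H69.cj_le_of_mem_normalizer hc hg

theorem Fam.mem_N (h : Fam p Q) (ha : g • a ∈ Li Q a b) (hb : g • b ∈ Li Q a b) :
    g ∈ Ng Q a b := by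
  refine H69.mem_normalizer_of_cj_le ?_
  rw [← h.x_K]
  exact sup_le ha hb

theorem Fam.mem_W (h : Fam p Q) :
    w ∈ Wg Q a b ↔ (∀ x ∈ Q a, w * x = x * w) ∧ ∀ x ∈ Q b, w * x = x * w := by
  unfold Wg Kg
  rw [H69.centralizer_sup, mem_inf, mem_centralizer_iff, mem_centralizer_iff]
  exact ⟨fun e => ⟨fun x hx => (e.1 x hx).symm, fun x hx => (e.2 x hx).symm⟩,
    fun e => ⟨fun x hx => (e.1 x hx).symm, fun x hx => (e.2 x hx).symm⟩⟩

theorem Fam.x_ker (h : Fam p Q) (hab : a ≠ b) (hw : Tr (Li Q a b) w) (hx : x ∈ Q a) : w * x = x * w := by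
  have wa := hw a (left_mem_Li Q a b)
  have wb := hw b (right_mem_Li Q a b)
  have wx := hw _ (h.N_inv (Kg_le_Ng Q a b (mem_sup_left hx)) (right_mem_Li Q a b))
  have hy := h.cj w a x hx
  rw [wa] at hy
  have e := h.sr a b hab.symm _ (mul_mem (inv_mem hx) hy) (by
    rw [mul_smul, mul_smul, mul_smul, inv_smul_eq_iff.2 wb.symm, wx, inv_smul_smul])
  rw [inv_mul_eq_one, eq_mul_inv_iff_mul_eq] at e
  exact e.symm

/-- `W` is the kernel on the line -/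
theorem Fam.W_iff (h : Fam p Q) (hab : a ≠ b) : w ∈ Wg Q a b ↔ Tr (Li Q a b) w := by
  constructor
  · intro hw c hc
    obtain ⟨x, hx, h1⟩ := h.ex c
    exact (h.fix_of_comm hx h1 (mem_Wg.1 hw x (hc hx)).symm).1
  · intro hw
    refine h.mem_W.2 ⟨fun x hx => h.x_ker hab hw hx, fun x hx => h.x_ker hab.symm ?_ hx⟩
    rwa [Li_comm]

theorem W_le_N (Q : Ω → Subgroup G) (a b : Ω) : Wg Q a b ≤ Ng Q a b := centralizer_le_normalizer _

theorem Fam.W_nrm (h : Fam p Q) (hg : g ∈ Ng Q a b) (hw : w ∈ Wg Q a b) :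
    g * w * g⁻¹ ∈ Wg Q a b :=
  H69.conj_mem_of_mem_normalizer (H69.normalizer_le_normalizer_centralizer _ hg) hw

theorem Lt_Li (Q : Ω → Subgroup G) (a b : Ω) : Lt (Li Q a b) Q = Kg Q a b :=
  le_antisymm (iSup₂_le fun c hc => hc)
    (sup_le (le_iSup₂_of_le (f := fun c (_ : c ∈ Li Q a b) => Q c) a (left_mem_Li Q a b) le_rfl)
      (le_iSup₂_of_le (f := fun c (_ : c ∈ Li Q a b) => Q c) b (right_mem_Li Q a b) le_rfl))

theorem x_modEq {p : ℕ} [Fact p.Prime] {T : Subgroup G} (hT : IsPGroup p T) {F : Set Ω}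
    (h : ∀ g ∈ T, ∀ x ∈ F, g • x ∈ F) :
    F.ncard ≡ {x | x ∈ F ∧ ∀ g ∈ T, g • x = x}.ncard [MOD p] := by
  let S : SubMulAction T Ω := ⟨F, fun g x hx => h g g.2 x hx⟩
  have h1 := hT.card_modEq_card_fixedPoints S
  have h2 : Nat.card S = F.ncard := Nat.card_coe_set_eq F
  rw [h2] at h1
  have e : fixedPoints T S ≃ {x | x ∈ F ∧ ∀ g ∈ T, g • x = x} :=
    ⟨fun x => ⟨x.1.1, x.1.2, fun g hg => congrArg Subtype.val (x.2 ⟨g, hg⟩)⟩,
      fun x => ⟨⟨x.1, x.2.1⟩, fun g => Subtype.ext (x.2.2 g g.2)⟩, fun _ => rfl, fun _ => rfl⟩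
  rwa [Nat.card_congr e, Nat.card_coe_set_eq] at h1

/-- a finite `Q a`-invariant set through `a` has `1 mod p` points, one avoiding `a` has `0 mod p` -/
theorem Fam.ncard_mod (h : Fam p Q) {M : Set Ω} (hM : ∀ x ∈ Q a, ∀ c ∈ M, x • c ∈ M) :
    (a ∈ M → M.ncard % p = 1) ∧ (a ∉ M → p ∣ M.ncard) := by
  haveI := Fact.mk h.pr
  have hP : IsPGroup p (Q a) := IsPGroup.of_card (n := 1) (by rw [h.card a, pow_one])
  have e := x_modEq hP hM
  have hf : ∀ c : Ω, (∀ g ∈ Q a, g • c = c) → c = a := by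
    intro c hc
    obtain ⟨x, hx, h1⟩ := h.ex a
    by_contra hne
    exact h1 (h.sr a c hne x hx (hc x hx))
  constructor
  · intro ha
    have : {x | x ∈ M ∧ ∀ g ∈ Q a, g • x = x} = {a} := by
      ext c
      exact ⟨fun hc => hf c hc.2, fun hc => by rw [Set.mem_singleton_iff.1 hc]; exact ⟨ha, h.fix a⟩⟩
    rw [this, Set.ncard_singleton] at e
    rw [e, Nat.mod_eq_of_lt h.pr.one_lt]
  · intro ha
    have : {x | x ∈ M ∧ ∀ g ∈ Q a, g • x = x} = ∅ :=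
      Set.eq_empty_of_forall_notMem fun c hc => ha (hf c hc.2 ▸ hc.1)
    rw [this, Set.ncard_empty] at e
    exact Nat.modEq_zero_iff_dvd.1 e

theorem Fam.ncard_L (h : Fam p Q) (hab : a ≠ b) :
    (Li Q a b).ncard % p = 1 ∧ p + 1 ≤ (Li Q a b).ncard := by
  have e := (h.ncard_mod (a := a) (M := Li Q a b)
    fun x hx c hc => h.N_inv (Kg_le_Ng Q a b (mem_sup_left hx)) hc).1 (left_mem_Li Q a b)
  refine ⟨e, ?_⟩
  have h2 : 1 < (Li Q a b).ncard :=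
    (Set.one_lt_ncard (Set.toFinite _)).2 ⟨a, left_mem_Li Q a b, b, right_mem_Li Q a b, hab⟩
  have h3 := Nat.div_add_mod (Li Q a b).ncard p
  rw [e] at h3
  rcases Nat.eq_zero_or_pos ((Li Q a b).ncard / p) with h4 | h4
  · rw [h4] at h3; omega
  · have := Nat.mul_le_mul_left p h4
    omega

theorem x_le_Lt {M : Set Ω} (Q : Ω → Subgroup G) (ha : a ∈ M) : Q a ≤ Lt M Q :=
  le_iSup₂_of_le (f := fun c (_ : c ∈ M) => Q c) a ha le_rfl

/-- Gleason: `⟨Q c : c ∈ M⟩` is transitive on `M` -/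
theorem Fam.gleason (h : Fam p Q) {M : Set Ω} (hM : ∀ a ∈ M, ∀ x ∈ Q a, ∀ c ∈ M, x • c ∈ M)
    (ha : a ∈ M) (hb : b ∈ M) : ∃ l ∈ Lt M Q, l • a = b := by
  have hO : ∀ e ∈ M, ∀ x ∈ Q e, ∀ c ∈ {c | ∃ l ∈ Lt M Q, l • a = c}, x • c ∈ {c | ∃ l ∈ Lt M Q, l • a = c} := by
    rintro e he x hx c ⟨l, hl, rfl⟩
    exact ⟨x * l, mul_mem (x_le_Lt Q he hx) hl, mul_smul x l a⟩
  by_contra hc
  have h1 := (h.ncard_mod (hO a ha)).1 ⟨1, one_mem _, one_smul G a⟩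
  have h2 := (h.ncard_mod (hO b hb)).2 hc
  rw [Nat.mod_eq_zero_of_dvd h2] at h1
  exact zero_ne_one h1

theorem Fam.Lt_normal (h : Fam p Q) : (Lt Set.univ Q).Normal := by
  refine H69.normal_iff_top_le_normalizer.2 (H69.le_normalizer_of_cj_le fun g _ => ?_)
  refine H69.cj_le_iff.2 (iSup₂_le fun c _ => H69.cj_le_iff.1 ?_)
  rw [← h.x_Q]
  exact x_le_Lt Q (Set.mem_univ _)

theorem Cl.inv (h : Fam p Q) {M : Set Ω} (hM : Cl Q M) (ha : a ∈ M) (hx : x ∈ Q a) (hc : c ∈ M) :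
    x • c ∈ M :=
  hM a ha c hc (h.N_inv (Kg_le_Ng Q a c (mem_sup_left hx)) (right_mem_Li Q a c))

end H97.CYN
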