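import Cfsg.Agent.Lib.CYN.Bas2

set_option autoImplicit false
set_option linter.unusedSectionVars false

namespace H97.CYN

open MulAction Subgroup Matrix H51.HK
open scoped MatrixGroups

variable {G Ω : Type} [Group G] [MulAction G Ω] [Finite G] [Finite Ω] {p : ℕ} {Q : Ω → Subgroup G}

variable {a b : Ω} {g : G}

/-- the centraliser of `Q c` -/
def UC (Q : Ω → Subgroup G) (c : Ω) : Subgroup G := centralizer (Q c : Set G)

/-- `W = 1` -/
def W1 (Q : Ω → Subgroup G) : Prop := ∀ a b : Ω, a ≠ b → Wg Q a b = ⊥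

theorem bs1_orb (X : Subgroup G) (b : Ω) :
    Nat.card X = {c | ∃ x ∈ X, x • b = c}.ncard * Nat.card ↥(X ⊓ stabilizer G b) := by
  have h1 := (stabilizer X b).card_mul_index
  have e1 : orbit X b = {c | ∃ x ∈ X, x • b = c} :=
    Set.ext fun c => ⟨fun ⟨x, e⟩ => ⟨x, x.2, e⟩, fun ⟨x, hx, e⟩ => ⟨⟨x, hx⟩, e⟩⟩
  have e2 : Nat.card (stabilizer X b) = Nat.card ↥(X ⊓ stabilizer G b) :=
    Nat.card_congr ⟨fun x => ⟨x.1.1, x.1.2, x.2⟩, fun x => ⟨⟨x.1, x.2.1⟩, x.2.2⟩, fun _ => rfl, fun _ => rfl⟩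
  rw [← h1, index_stabilizer, e1, e2, mul_comm]

theorem bs1_tr {X : Subgroup G} {M : Set Ω} {x : Ω} (hi : ∀ u ∈ X, u • x ∈ M)
    (hs : ∀ u ∈ X, u • x = x → u = 1) :
    Nat.card X ≤ M.ncard ∧ (M.ncard ≤ Nat.card X → ∀ y ∈ M, ∃ u ∈ X, u • x = y) := by
  have e := bs1_orb X x
  rw [show X ⊓ stabilizer G x = ⊥ from eq_bot_iff.2 fun u hu => hs u hu.1 hu.2, card_bot, mul_one] at e
  have hsub : {c | ∃ u ∈ X, u • x = c} ⊆ M := by rintro _ ⟨u, hu, rfl⟩; exact hi u hu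
  refine ⟨e ▸ Set.ncard_le_ncard hsub, fun hc y hy => ?_⟩
  rwa [← Set.eq_of_subset_of_ncard_le hsub (e ▸ hc)] at hy

theorem bs1_ne {u : G} {c x : Ω} (hu : u • c = c) (hx : x ≠ c) : u • x ≠ c := fun e =>
  hx (MulAction.injective u (e.trans hu.symm))

theorem bs1_hom (h : Fam p Q) {X : Subgroup G} (hX : X ≤ stabilizer G a) :
    ∃ f : X →* MulAut (Q a), ∀ x, f x = 1 ↔ (x : G) ∈ UC Q a := by
  have hN : X ≤ normalizer (Q a : Set G) := fun g hg => mem_normalizer_iff.2 fun x => by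
    have := h.cj_iff g x a
    rw [show g • a = a from hX hg] at this
    exact this.symm
  refine ⟨(Q a).normalizerMonoidHom.comp (inclusion hN), fun x => ?_⟩
  rw [MonoidHom.comp_apply, ← MonoidHom.mem_ker, normalizerMonoidHom_ker]
  rfl

theorem bs1_aut (h : Fam p Q) (a : Ω) : IsCyclic (MulAut (Q a)) ∧ Nat.card (MulAut (Q a)) = p - 1 := by
  have := Fact.mk h.pr
  have : IsCyclic (Q a) := isCyclic_of_prime_card (h.card a)
  refine ⟨?_, by rw [IsCyclic.card_mulAut, h.card, Nat.totient_prime h.pr]⟩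
  have : IsCyclic (ZMod (Nat.card (Q a)))ˣ := by rw [h.card]; exact ZMod.isCyclic_units_prime h.pr
  exact isCyclic_of_injective (IsCyclic.mulAutMulEquiv (Q a)).toMonoidHom (MulEquiv.injective _)

theorem bs1_fix (h : Fam p Q) : UC Q a ≤ stabilizer G a := fun g hg =>
  let ⟨x, hx, h1⟩ := h.ex a
  (h.fix_of_comm hx h1 (hg x hx).symm).1

theorem St.H_faith (h : St p Q) (hW : W1 Q) (hab : a ≠ b) (gb : g • b = b)
    (hc : ∀ x ∈ Q a, g * x = x * g) : g = 1 := by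
  have := h.toFam.W_of_tp (h.tp hc) (bs1_fix h.toFam fun x hx => (hc x hx).symm) gb
  rwa [hW a b hab] at this

theorem bs1_inj (h : St p Q) (hW : W1 Q) (hab : a ≠ b) :
    ∃ f : ↥(stabilizer G a ⊓ stabilizer G b) →* MulAut (Q a), Function.Injective f := by
  obtain ⟨f, hf⟩ := bs1_hom h.toFam (inf_le_left (a := stabilizer G a) (b := stabilizer G b))
  exact ⟨f, (injective_iff_map_eq_one f).2 fun x e =>
    Subtype.ext (h.H_faith hW hab x.2.2 fun y hy => ((hf x).1 e y hy).symm)⟩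

theorem St.H_cyc (h : St p Q) (hW : W1 Q) (hab : a ≠ b) :
    IsCyclic ↥(stabilizer G a ⊓ stabilizer G b) := by
  obtain ⟨f, hf⟩ := bs1_inj h hW hab
  have := (bs1_aut h.toFam a).1
  exact isCyclic_of_injective f hf

theorem St.H_dvd (h : St p Q) (hW : W1 Q) (hab : a ≠ b) :
    Nat.card ↥(stabilizer G a ⊓ stabilizer G b) ∣ p - 1 := by
  obtain ⟨f, hf⟩ := bs1_inj h hW hab
  rw [← (bs1_aut h.toFam a).2]
  exact card_dvd_of_injective f hf

theorem St.dvd_card (h : St p Q) : p ∣ Nat.card Ω - 1 := by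
  obtain ⟨a, -⟩ := h.nt.exists_pair_ne
  have := (h.toFam.ncard_mod (a := a) (M := Set.univ) fun _ _ _ _ => trivial).1 trivial
  rw [Set.ncard_univ] at this
  rw [← Nat.div_add_mod (Nat.card Ω) p, this]
  exact ⟨_, rfl⟩

theorem bs1_compl (a : Ω) : (Set.univ \ {a} : Set Ω).ncard = Nat.card Ω - 1 := by
  rw [Set.ncard_diff_singleton_of_mem (Set.mem_univ a), Set.ncard_univ]

theorem bs1_Ga (h : St p Q) (hab : a ≠ b) : Nat.card (stabilizer G a) =
    (Nat.card Ω - 1) * Nat.card ↥(stabilizer G a ⊓ stabilizer G b) := by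
  rw [bs1_orb _ b, ← bs1_compl a]
  congr 2
  exact Set.ext fun c => ⟨fun ⟨x, hx, e⟩ => ⟨trivial, e ▸ bs1_ne hx hab.symm⟩,
    fun hc => h.two a b a c hab (Ne.symm hc.2)⟩

theorem St.card_G (h : St p Q) (hab : a ≠ b) : Nat.card G =
    Nat.card Ω * (Nat.card Ω - 1) * Nat.card ↥(stabilizer G a ⊓ stabilizer G b) := by
  have := h.nt
  rw [mul_assoc, ← bs1_Ga h hab, ← card_top (G := G), bs1_orb _ a, top_inf_eq, ← Set.ncard_univ Ω]
  congr 2
  refine Set.eq_univ_of_forall fun c => ?_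
  obtain ⟨d, hd⟩ := exists_ne c
  obtain ⟨g, e, -⟩ := h.two a b c d hab hd.symm
  exact ⟨g, trivial, e⟩

theorem bs1_C (h : St p Q) (hW : W1 Q) {k : ℕ} (hk : Nat.card Ω = p ^ k + 1) (hab : a ≠ b) :
    Nat.card (UC Q a) = p ^ k ∧ ∀ y, y ≠ a → ∃ u ∈ UC Q a, u • b = y := by
  obtain ⟨h1, h2⟩ := bs1_tr (X := UC Q a) (M := Set.univ \ {a}) (x := b)
    (fun u hu => ⟨trivial, bs1_ne (bs1_fix h.toFam hu) hab.symm⟩)
    fun u hu e => h.H_faith hW hab e fun x hx => (hu x hx).symm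
  rw [bs1_compl, hk, Nat.add_sub_cancel] at h1 h2
  obtain ⟨f, hf⟩ := bs1_hom h.toFam (le_refl (stabilizer G a))
  have e1 : f.ker = (UC Q a).subgroupOf (stabilizer G a) := Subgroup.ext hf
  have e2 := f.ker.card_mul_index
  rw [index_ker, bs1_Ga h hab, hk, Nat.add_sub_cancel, e1,
    Nat.card_congr (subgroupOfEquivOfLe (bs1_fix h.toFam)).toEquiv] at e2
  have e3 : Nat.card f.range ∣ p - 1 := (bs1_aut h.toFam a).2 ▸ card_subgroup_dvd_card _
  have e4 : (p ^ k).Coprime (Nat.card f.range) := (Nat.Coprime.coprime_dvd_right e3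
    ((Nat.coprime_self_sub_right h.pr.one_le).2 (Nat.coprime_one_right p))).pow_left k
  have e5 := Nat.le_of_dvd Nat.card_pos (e4.dvd_of_dvd_mul_right ⟨_, e2⟩)
  exact ⟨le_antisymm h1 e5, fun y hy => h2 e5 y ⟨trivial, hy⟩⟩

theorem St.cb (h : St p Q) (hW : W1 Q) {k : ℕ} (hk : Nat.card Ω = p ^ k + 1) :
    Cb (UC Q) ∧ ∀ c, Q c ≤ UC Q c := by
  have := h.nt
  have := Fact.mk h.pr
  have hc : ∀ c, Nat.card (UC Q c) = p ^ k := fun c =>
    let ⟨_, hd⟩ := exists_ne c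
    (bs1_C h hW hk hd.symm).1
  refine ⟨⟨⟨fun _ _ _ _ => trivial, fun _ _ => le_top, fun c _ u hu => bs1_fix h.toFam hu,
    fun g _ c _ u hu y hy => (h.toFam.bas2_cent_cj (fun x hx => (hu x hx).symm) g y hy).symm,
    fun c _ x _ y _ hx hy => (bs1_C h hW hk hx.symm).2 y hy,
    fun c _ => (IsPGroup.of_card (hc c)).isNilpotent, fun c _ => hc c ▸ h.toFam.odd.pow⟩, h.faith,
    h.three⟩, fun c x hx y hy => h.toFam.comm hy hx⟩

theorem bs1_ld (h : Fam p Q) {N : Subgroup G} {Δ : Set Ω} (hi : ∀ g ∈ N, ∀ x ∈ Δ, g • x ∈ Δ)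
    (hle : ∀ c ∈ Δ, Q c ≤ N) (hc : Δ.ncard = p + 1) : LD N Δ Q := by
  have := Fact.mk h.pr
  refine ⟨hi, hle, fun c _ => h.fix c, fun g _ c _ => h.cj g c, fun c hc' x hx y hy xc yc => ?_,
    fun c _ => (IsPGroup.of_card ((h.card c).trans (pow_one p).symm)).isNilpotent,
    fun c _ => (h.card c).symm ▸ h.odd⟩
  refine (bs1_tr (X := Q c) (M := Δ \ {c}) (x := x)
    (fun u hu => ⟨hi u (hle c hc' hu) x hx, bs1_ne (h.fix c u hu) xc⟩) (h.sr c x xc)).2 ?_ y ⟨hy, yc⟩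
  rw [Set.ncard_diff_singleton_of_mem hc', hc, h.card, Nat.add_sub_cancel]

theorem St.cbQ (h : St p Q) (hc : Nat.card Ω = p + 1) : Cb Q :=
  ⟨bs1_ld h.toFam (fun _ _ _ _ => trivial) (fun _ _ => le_top) (by rwa [Set.ncard_univ]), h.faith,
    h.three⟩

/-- a line with `p + 1` points -/
theorem St.ldL (h : St p Q) (hab : a ≠ b) (hc : (Li Q a b).ncard = p + 1) :
    LD (Ng Q a b) (Li Q a b) Q ∧ FaithV (Li Q a b) Q := by
  refine ⟨bs1_ld h.toFam (fun g hg x hx => h.toFam.N_inv hg hx)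
    (fun c hc => (mem_Li.1 hc).trans (Kg_le_Ng Q a b)) hc, fun c _ u hu e => ?_⟩
  by_cases hca : a = c
  · exact h.sr c b (hca ▸ hab.symm) u hu (e b (right_mem_Li Q a b))
  · exact h.sr c a hca u hu (e a (left_mem_Li Q a b))

end H97.CYN
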