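import Cfsg.Agent.Lib.HK.Defs2

/-! Doubly transitive groups with a normal subgroup of prime order in the point stabiliser:
definitions (blueprint/CYN/README.md). -/

set_option autoImplicit false
set_option linter.unusedSectionVars false

namespace H97.CYN

open MulAction Subgroup Matrix H51.HK
open scoped MatrixGroups

variable {G Ω : Type} [Group G] [MulAction G Ω]

/-- an invariant family of semiregular subgroups of odd prime order -/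
structure Fam (p : ℕ) (Q : Ω → Subgroup G) : Prop where
  pr : p.Prime
  od : p ≠ 2
  card : ∀ a, Nat.card (Q a) = p
  fix : ∀ a, ∀ x ∈ Q a, x • a = a
  cj : ∀ (g : G) (a : Ω), ∀ x ∈ Q a, g * x * g⁻¹ ∈ Q (g • a)
  sr : ∀ a b : Ω, b ≠ a → ∀ x ∈ Q a, x • b = b → x = 1

/-- the standing hypothesis: faithful and doubly transitive -/
structure St (p : ℕ) (Q : Ω → Subgroup G) : Prop extends Fam p Q where
  faith : ∀ g : G, (∀ x : Ω, g • x = x) → g = 1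
  two : ∀ a b c d : Ω, a ≠ b → c ≠ d → ∃ g : G, g • a = c ∧ g • b = d
  nt : Nontrivial Ω

/-- `K = ⟨Q a, Q b⟩` -/
def Kg (Q : Ω → Subgroup G) (a b : Ω) : Subgroup G := Q a ⊔ Q b

/-- the line through `a` and `b` -/
def Li (Q : Ω → Subgroup G) (a b : Ω) : Set Ω := {c | Q c ≤ Kg Q a b}

/-- the stabiliser of the line -/
def Ng (Q : Ω → Subgroup G) (a b : Ω) : Subgroup G := normalizer (Kg Q a b : Set G)

/-- `W = C(K)`, the kernel of `N(K)` on the line -/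
def Wg (Q : Ω → Subgroup G) (a b : Ω) : Subgroup G := centralizer (Kg Q a b : Set G)

/-- `g` centralises `Q c` at each of its fixed points -/
def Tp (Q : Ω → Subgroup G) (g : G) : Prop := ∀ c : Ω, g • c = c → ∀ x ∈ Q c, g * x = x * g

/-- closed under lines -/
def Cl (Q : Ω → Subgroup G) (M : Set Ω) : Prop := ∀ a ∈ M, ∀ b ∈ M, Li Q a b ⊆ M

/-- there is only one line -/
def Col (Q : Ω → Subgroup G) : Prop := ∀ a b : Ω, a ≠ b → ∀ c, c ∈ Li Q a b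

/-- a regular normal subgroup -/
def RNS (G Ω : Type) [Group G] [MulAction G Ω] : Prop :=
  ∃ N : Subgroup G, N.Normal ∧ (∀ x y : Ω, ∃ n ∈ N, n • x = y) ∧
    ∀ x : Ω, ∀ n ∈ N, n • x = x → n = 1

def RL2 (Q : Ω → Subgroup G) : Prop :=
  ∃ (F : Type) (_ : Field F) (_ : Fintype F), Nat.card Ω = Fintype.card F + 1 ∧
    Nonempty (Lt Set.univ Q ≃* PSL(2, F))

def RU3 (Q : Ω → Subgroup G) (q : ℕ) : Prop :=
  Nat.card Ω = q ^ 3 + 1 ∧ ∃ (F : Type) (_ : Field F) (_ : Fintype F), Fintype.card F = q ^ 2 ∧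
    Nonempty (Lt Set.univ Q ≃* Cfsg.PSU 3 F q)

def RRe (Q : Ω → Subgroup G) : Prop :=
  Nat.card Ω = 28 ∧ (∃ (F : Type) (_ : Field F) (_ : Fintype F), Fintype.card F = 8 ∧
    Nonempty (Lt Set.univ Q ≃* PSL(2, F))) ∧
  ∃ (K : Type) (_ : Field K) (_ : Fintype K), Fintype.card K = 3 ∧
    Nonempty (G ≃* Cfsg.Lie.twistedG2 K 1)

/-- root `p`-groups inside `⟨Q c⟩` -/
def HU (p : ℕ) (Q : Ω → Subgroup G) : Prop :=
  ∃ U : Ω → Subgroup G, Cb U ∧ ∀ c, IsPGroup p (U c) ∧ U c ≤ Lt Set.univ Q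

/-- the extra information in the case `²G₂(3)` -/
structure Re3 (Q : Ω → Subgroup G) : Prop where
  re : RRe Q
  idx : ∀ g : G, g ^ 3 ∈ Lt Set.univ Q
  inv : ∀ g : G, g * g = 1 → ∃ c d : Ω, c ≠ d ∧ g • c = c ∧ g • d = d
  tw : ∀ a : Ω, ∃ d ∈ Lt Set.univ Q, d • a = a ∧ ∃ x ∈ Q a, d * x ≠ x * d

/-- the conclusion -/
def Res (p : ℕ) (Q : Ω → Subgroup G) : Prop :=
  RNS G Ω ∨ (HU p Q ∧ (RL2 Q ∨ RU3 Q p)) ∨ (p = 3 ∧ Re3 Q)

/-- affine line: `K = R Q`, `R` a 2-group, regular on the line modulo the centre of `K` -/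
structure Af (Q : Ω → Subgroup G) (a b : Ω) (R : Subgroup G) : Prop where
  two : IsPGroup 2 R
  le : R ≤ Kg Q a b
  nrm : ∀ g ∈ Ng Q a b, ∀ r ∈ R, g * r * g⁻¹ ∈ R
  sup : ∀ c ∈ Li Q a b, ∀ k ∈ Kg Q a b, ∃ x ∈ Q c, x⁻¹ * k ∈ R
  tr : ∀ c ∈ Li Q a b, ∀ d ∈ Li Q a b, ∃ r ∈ R, r • c = d
  ker : ∀ r ∈ R, ∀ c ∈ Li Q a b, r • c = c → r ∈ Wg Q a b
  sq : ∀ r ∈ R, r * r ∈ Wg Q a b

/-- affine lines with elementary abelian `R` -/
def CaseA (Q : Ω → Subgroup G) : Prop :=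
  ∀ a b : Ω, a ≠ b → ∃ R, Af Q a b R ∧ ∀ r ∈ R, r * r = 1

/-- affine lines with all involutions of `R` central -/
def CaseB (Q : Ω → Subgroup G) : Prop :=
  ∀ a b : Ω, a ≠ b → ∃ R, Af Q a b R ∧ ∀ r ∈ R, r * r = 1 → r ∈ Wg Q a b

/-- lines of type `L₂(p)` -/
def L2L (Q : Ω → Subgroup G) : Prop :=
  ∀ a b : Ω, a ≠ b → ∃ (F : Type) (_ : Field F) (_ : Fintype F) (e : Ω → OnePoint F)
    (π : SL(2, F) →* G), L2Q (Ng Q a b) (Li Q a b) Q a b F e π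

/-- each line is the set of fixed points of an involution of its group -/
def Zl (Q : Ω → Subgroup G) : Prop :=
  ∀ a b : Ω, a ≠ b → ∃ z ∈ Kg Q a b, z * z = 1 ∧ ∀ x, z • x = x ↔ x ∈ Li Q a b

/-- lines of type `L₂(8)` with 28 points -/
structure R8 (Q : Ω → Subgroup G) (a b : Ω) : Prop where
  card : (Li Q a b).ncard = 28
  iso : ∃ (F : Type) (_ : Field F) (_ : Fintype F) (ψ : Kg Q a b →* PSL(2, F)),
    Fintype.card F = 8 ∧ Function.Surjective ψ ∧ ∀ k, ψ k = 1 ↔ Tr (Li Q a b) (k : G)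
  idx : ∀ g ∈ Ng Q a b, ∃ k ∈ Kg Q a b, Tr (Li Q a b) (k⁻¹ * g ^ 3)
  inv : ∀ g ∈ Ng Q a b, Tr (Li Q a b) (g * g) →
    ∃ c ∈ Li Q a b, ∃ d ∈ Li Q a b, c ≠ d ∧ g • c = c ∧ g • d = d

/-- `f : N → X` is the action of `N` on the invariant set `Δ` -/
structure Im (N : Subgroup G) (Δ : Set Ω) {X : Type} [Group X] [MulAction X Δ] (f : N →* X) :
    Prop where
  inv : ∀ g ∈ N, ∀ x ∈ Δ, g • x ∈ Δ
  surj : Function.Surjective f
  act : ∀ (g : N) (x : Δ), ((f g • x : Δ) : Ω) = (g : G) • (x : Ω)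
  faith : ∀ g : X, (∀ x : Δ, g • x = x) → g = 1

/-- the image of the family -/
def Qi (Q : Ω → Subgroup G) {N : Subgroup G} {Δ : Set Ω} {X : Type} [Group X] (f : N →* X)
    (c : Δ) : Subgroup X := ((Q c).subgroupOf N).map f

theorem mem_Qi {Q : Ω → Subgroup G} {N : Subgroup G} {Δ : Set Ω} {X : Type} [Group X]
    {f : N →* X} {c : Δ} {x : X} : x ∈ Qi Q f c ↔ ∃ g : N, (g : G) ∈ Q c ∧ f g = x :=
  ⟨fun ⟨g, h, e⟩ => ⟨g, h, e⟩, fun ⟨g, h, e⟩ => ⟨g, h, e⟩⟩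

theorem mem_Li {Q : Ω → Subgroup G} {a b c : Ω} : c ∈ Li Q a b ↔ Q c ≤ Kg Q a b := Iff.rfl

theorem mem_Wg {Q : Ω → Subgroup G} {a b : Ω} {w : G} :
    w ∈ Wg Q a b ↔ ∀ k ∈ Kg Q a b, k * w = w * k := Iff.rfl

theorem Kg_comm (Q : Ω → Subgroup G) (a b : Ω) : Kg Q a b = Kg Q b a := sup_comm _ _

theorem Li_comm (Q : Ω → Subgroup G) (a b : Ω) : Li Q a b = Li Q b a := by
  unfold Li; rw [Kg_comm]

theorem Ng_comm (Q : Ω → Subgroup G) (a b : Ω) : Ng Q a b = Ng Q b a := by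
  unfold Ng; rw [Kg_comm]

theorem Wg_comm (Q : Ω → Subgroup G) (a b : Ω) : Wg Q a b = Wg Q b a := by
  unfold Wg; rw [Kg_comm]

theorem left_mem_Li (Q : Ω → Subgroup G) (a b : Ω) : a ∈ Li Q a b := le_sup_left (a := Q a)

theorem right_mem_Li (Q : Ω → Subgroup G) (a b : Ω) : b ∈ Li Q a b := le_sup_right (b := Q b)

theorem Kg_le_Ng (Q : Ω → Subgroup G) (a b : Ω) : Kg Q a b ≤ Ng Q a b := le_normalizer

end H97.CYN
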