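import Cfsg.Agent.Lib.CYN.Bas2
import Cfsg.Agent.Lib.LocStruct.SylowIn

set_option autoImplicit false
set_option linter.unusedSectionVars false

namespace H97.CYN

open MulAction Subgroup Matrix H51.HK
open scoped MatrixGroups

variable {G Ω : Type} [Group G] [MulAction G Ω] [Finite G] [Finite Ω] {p : ℕ} {Q : Ω → Subgroup G}

/-- the set of points joined to `e` by a bad line is invariant -/
theorem e2_par (h : St p Q) {X Y : Subgroup G} (hY : IsPGroup 2 Y)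
    (hn : Y ≤ normalizer (X : Set G)) {e : Ω} (he : ∀ y ∈ Y, y • e = e) :
    {d | d ∈ Fx Ω (X : Set G) ∧ d ≠ e ∧ ¬ Kg Q e d ⊓ Wg Q e d ≤ X}.ncard ≡
      {d | (d ∈ Fx Ω (X : Set G) ∧ d ≠ e ∧ ¬ Kg Q e d ⊓ Wg Q e d ≤ X) ∧
        ∀ y ∈ Y, y • d = d}.ncard [MOD 2] := by
  haveI : Fact (Nat.Prime 2) := ⟨Nat.prime_two⟩
  refine x_modEq (p := 2) hY ?_
  rintro y hy d ⟨h1, h2, h3⟩
  have hN := mem_normalizer_iff.1 (hn hy)
  refine ⟨fun x hx => ?_, fun e1 => h2 ?_, fun e1 => h3 fun k hk => ?_⟩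
  · have : y⁻¹ * x * y ∈ X := (hN _).2 (by simpa [mul_assoc] using hx)
    have e1 := h1 _ this
    rw [mul_smul, mul_smul, inv_smul_eq_iff] at e1
    exact e1
  · rw [← he y hy] at e1
    exact (smul_left_cancel_iff y).1 e1
  · refine (hN k).2 (e1 ⟨?_, ?_⟩)
    · have := (h.toFam.K_cj y k e d).2 hk.1
      rwa [he y hy] at this
    · have := (h.toFam.W_cj y k e d).2 hk.2
      rwa [he y hy] at this

theorem e2_two {Z : Subgroup G} {z : G} (hz : z * z = 1) (h : ∀ k, k ∈ Z ↔ k = 1 ∨ k = z) :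
    IsPGroup 2 Z := fun k => ⟨1, Subtype.ext (by
  rcases (h k).1 k.2 with e | e
  · simp [e]
  · simp [e, sq, hz])⟩

theorem St.e_good (h : St p Q) (hl : ∀ a b : Ω, a ≠ b → (Li Q a b).ncard = p + 1)
    (hZ : ∀ a b : Ω, a ≠ b → ∃ z : G, z * z = 1 ∧ ∀ k, k ∈ Kg Q a b ⊓ Wg Q a b ↔ k = 1 ∨ k = z)
    {a b c : Ω} (hbc : b ≠ c) (hn : a ∉ Li Q b c) (hf : ∀ k ∈ Kg Q b c ⊓ Wg Q b c, k • a = a) :
    ∃ Γ : Set Ω, Cl Q Γ ∧ (∃ a ∈ Γ, ∃ b ∈ Γ, ∃ c ∈ Γ, b ≠ c ∧ a ∉ Li Q b c) ∧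
      ∀ a ∈ Γ, ∀ b ∈ Γ, a ≠ b → ∀ k ∈ Kg Q a b ⊓ Wg Q a b, Tr Γ k := by
  classical
  haveI : Fact (Nat.Prime 2) := ⟨Nat.prime_two⟩
  have f := h.toFam
  have Z2 : ∀ d e : Ω, d ≠ e → IsPGroup 2 (Kg Q d e ⊓ Wg Q d e : Subgroup G) := fun d e hde => by
    obtain ⟨z, hz, hk⟩ := hZ d e hde
    exact e2_two hz hk
  let S : Subgroup G → Prop := fun X => IsPGroup 2 X ∧ (∀ x ∈ X, Tp Q x) ∧
    ∃ a ∈ Fx Ω (X : Set G), ∃ b ∈ Fx Ω (X : Set G), ∃ c ∈ Fx Ω (X : Set G), b ≠ c ∧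
      a ∉ Li Q b c ∧ Kg Q b c ⊓ Wg Q b c ≤ X
  have S0 : S (Kg Q b c ⊓ Wg Q b c) :=
    ⟨Z2 b c hbc, fun x hx => h.tp_of_W hx.2, a, hf, b,
      fun x hx => (f.W_iff hbc).1 hx.2 b (left_mem_Li Q b c), c,
      fun x hx => (f.W_iff hbc).1 hx.2 c (right_mem_Li Q b c), hbc, hn, le_rfl⟩
  obtain ⟨X, -, hX⟩ := Finite.exists_le_maximal S0
  obtain ⟨X2, Xtp, a₀, ha₀, b₀, hb₀, c₀, hc₀, hbc₀, hn₀, hZ₀⟩ := hX.prop
  have cl : Cl Q (Fx Ω (X : Set G)) := f.cl_fix Xtp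
  have XW : ∀ d ∈ Fx Ω (X : Set G), ∀ e ∈ Fx Ω (X : Set G), X ≤ Wg Q d e :=
    fun d hd e he x hx => f.W_of_tp (Xtp x hx) (hd x hx) (he x hx)
  have M : ∀ d e : Ω, d ≠ e → ∀ Y : Subgroup G, IsPGroup 2 Y → X < Y → Y ≤ Wg Q d e →
      Kg Q d e ⊓ Wg Q d e ≤ Y → ∀ x : Ω, (∀ y ∈ Y, y • x = x) → x ∈ Li Q d e := by
    intro d e hde Y Y2 lt YW ZY x hx
    by_contra nx
    exact lt.not_ge (hX.2 ⟨Y2, fun y hy => h.tp_of_W (YW hy), x, hx, d,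
      fun y hy => (f.W_iff hde).1 (YW hy) d (left_mem_Li Q d e), e,
      fun y hy => (f.W_iff hde).1 (YW hy) e (right_mem_Li Q d e), hde, nx, ZY⟩ lt.le)
  have key : ∀ e ∈ Fx Ω (X : Set G), ∀ e₁ ∈ Fx Ω (X : Set G), ∀ e₂ ∈ Fx Ω (X : Set G),
      e ≠ e₁ → e ≠ e₂ → Kg Q e e₁ ⊓ Wg Q e e₁ ≤ X → Kg Q e e₂ ⊓ Wg Q e e₂ ≤ X := by
    intro e he e₁ he₁ e₂ he₂ n1 n2 good
    by_contra bad
    have ZN : Kg Q e e₂ ⊓ Wg Q e e₂ ≤ normalizer (X : Set G) := by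
      refine le_trans (fun k hk => ?_) (centralizer_le_normalizer (X : Set G))
      exact fun x hx => (mem_Wg.1 (XW e he e₂ he₂ hx) k hk.1).symm
    set Y := X ⊔ Kg Q e e₂ ⊓ Wg Q e e₂ with hY
    have Y2 : IsPGroup 2 Y := IsPGroup.to_sup_of_normal_left' X2 (Z2 e e₂ n2) ZN
    have lt : X < Y := lt_of_le_of_ne le_sup_left fun e1 => bad (e1 ▸ le_sup_right)
    have YW : Y ≤ Wg Q e e₂ := sup_le (XW e he e₂ he₂) inf_le_right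
    have p1 := e2_par h Y2 (sup_le le_normalizer ZN)
      (fun y hy => (f.W_iff n2).1 (YW hy) e (left_mem_Li Q e e₂))
    have s1 : {d | (d ∈ Fx Ω (X : Set G) ∧ d ≠ e ∧ ¬ Kg Q e d ⊓ Wg Q e d ≤ X) ∧
        ∀ y ∈ Y, y • d = d} = Li Q e e₂ \ {e} := by
      ext d
      constructor
      · rintro ⟨⟨-, h2, -⟩, h4⟩
        exact ⟨M e e₂ n2 Y Y2 lt YW le_sup_right d h4, h2⟩
      · rintro ⟨h1, h2⟩
        have h2' : e ≠ d := fun e1 => h2 e1.symm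
        refine ⟨⟨cl e he e₂ he₂ h1, h2, ?_⟩, fun y hy => (f.W_iff n2).1 (YW hy) d h1⟩
        rw [h.K_eq n2 (left_mem_Li Q e e₂) h1 h2', h.W_eq n2 (left_mem_Li Q e e₂) h1 h2']
        exact bad
    rw [s1, Set.ncard_diff_singleton_of_mem (left_mem_Li Q e e₂), hl e e₂ n2,
      Nat.add_sub_cancel] at p1
    obtain ⟨T, hT, XT⟩ := H69.exists_isSylowIn_le X2 (XW e he e₁ he₁)
    have lt1 : X < T := by
      refine lt_of_le_of_ne XT fun e1 => ?_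
      subst e1
      obtain ⟨g, g1, g2⟩ := h.two e e₁ e e₂ n1 n2
      have s2 := hT.cj g
      have eW : (Wg Q e e₁).map (MulAut.conj g).toMonoidHom = Wg Q e e₂ := by
        ext k
        rw [H69.mem_cj, ← f.W_cj g, g1, g2]
        simp [mul_assoc]
      have c1 := (eW ▸ s2).card_le Y2 YW
      rw [H69.card_cj] at c1
      exact lt.ne (eq_of_le_of_card_ge lt.le c1)
    have lt2 := H69.lt_inf_normalizer_of_lt hT.isP lt1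
    have T2 : IsPGroup 2 (T ⊓ normalizer (X : Set G) : Subgroup G) := hT.isP.to_inf_left
    have TW : T ⊓ normalizer (X : Set G) ≤ Wg Q e e₁ := inf_le_left.trans hT.le
    have p2 := e2_par h T2 inf_le_right
      (fun y hy => (f.W_iff n1).1 (TW hy) e (left_mem_Li Q e e₁))
    have s2 : {d | (d ∈ Fx Ω (X : Set G) ∧ d ≠ e ∧ ¬ Kg Q e d ⊓ Wg Q e d ≤ X) ∧
        ∀ y ∈ T ⊓ normalizer (X : Set G), y • d = d} = ∅ := by
      rw [Set.eq_empty_iff_forall_notMem]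
      rintro d ⟨⟨-, h2, h3⟩, h4⟩
      have h1 := M e e₁ n1 _ T2 lt2 TW (good.trans lt2.le) d h4
      rw [h.K_eq n1 (left_mem_Li Q e e₁) h1 h2.symm, h.W_eq n1 (left_mem_Li Q e e₁) h1 h2.symm]
        at h3
      exact h3 good
    rw [s2, Set.ncard_empty] at p2
    have := p1.symm.trans p2
    have o := Nat.odd_iff.1 f.odd
    unfold Nat.ModEq at this
    omega
  refine ⟨Fx Ω (X : Set G), cl, ⟨a₀, ha₀, b₀, hb₀, c₀, hc₀, hbc₀, hn₀⟩,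
    fun d hd e he hde k hk x hx => hx k ?_⟩
  by_cases e1 : b₀ = d
  · subst e1
    exact key b₀ hb₀ c₀ hc₀ e he hbc₀ hde hZ₀ hk
  · have g1 := key b₀ hb₀ c₀ hc₀ d hd hbc₀ e1 hZ₀
    rw [Kg_comm, Wg_comm] at g1
    exact key d hd b₀ hb₀ e he (Ne.symm e1) hde g1 hk

end H97.CYN
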