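import Cfsg.Agent.Lib.CYN.Bas2

set_option autoImplicit false
set_option linter.unusedSectionVars false

namespace H97.CYN

open MulAction Subgroup Matrix H51.HK
open scoped MatrixGroups

variable {G Ω : Type} [Group G] [MulAction G Ω] [Finite G] [Finite Ω] {p : ℕ} {Q : Ω → Subgroup G}

variable {a b : Ω} {R : Subgroup G}

theorem ln1_mem_map {g x : G} :
    x ∈ R.map (MulAut.conj g).toMonoidHom ↔ g⁻¹ * x * g ∈ R := by
  constructor
  · rintro ⟨y, hy, rfl⟩
    have : g⁻¹ * (MulAut.conj g).toMonoidHom y * g = y := by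
      simp [mul_assoc]
    rw [this]; exact hy
  · intro hx
    exact ⟨g⁻¹ * x * g, hx, by simp [mul_assoc]⟩

theorem Af.cj (r : Af Q a b R) (h : Fam p Q) (g : G) :
    Af Q (g • a) (g • b) (R.map (MulAut.conj g).toMonoidHom) := by
  have eK : ∀ k, k ∈ Kg Q (g • a) (g • b) ↔ g⁻¹ * k * g ∈ Kg Q a b := fun k => by
    rw [← h.K_cj g (g⁻¹ * k * g) a b]; simp [mul_assoc]
  have eN : ∀ k, k ∈ Ng Q (g • a) (g • b) ↔ g⁻¹ * k * g ∈ Ng Q a b := fun k => by
    rw [← h.N_cj g (g⁻¹ * k * g) a b]; simp [mul_assoc]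
  have eW : ∀ k, k ∈ Wg Q (g • a) (g • b) ↔ g⁻¹ * k * g ∈ Wg Q a b := fun k => by
    rw [← h.W_cj g (g⁻¹ * k * g) a b]; simp [mul_assoc]
  have eL : ∀ c, c ∈ Li Q (g • a) (g • b) ↔ g⁻¹ • c ∈ Li Q a b := fun c => by
    rw [← h.L_cj g a b (g⁻¹ • c)]; simp
  refine ⟨r.two.map _, ?_, ?_, ?_, ?_, ?_, ?_⟩
  · intro x hx
    rw [eK]; exact r.le (ln1_mem_map.1 hx)
  · intro n hn x hx
    rw [ln1_mem_map] at hx ⊢
    have := r.nrm _ ((eN n).1 hn) _ hx
    convert this using 1
    group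
  · intro c hc k hk
    obtain ⟨x, hx, e⟩ := r.sup _ ((eL c).1 hc) _ ((eK k).1 hk)
    refine ⟨g * x * g⁻¹, ?_, ?_⟩
    · have := h.cj g _ x hx
      rwa [smul_inv_smul] at this
    · rw [ln1_mem_map]
      convert e using 1
      group
  · intro c hc d hd
    obtain ⟨x, hx, e⟩ := r.tr _ ((eL c).1 hc) _ ((eL d).1 hd)
    refine ⟨g * x * g⁻¹, ?_, ?_⟩
    · rw [ln1_mem_map]
      convert hx using 1
      group
    · rw [mul_smul, mul_smul, e, smul_inv_smul]
  · intro x hx c hc e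
    rw [eW]
    refine r.ker _ (ln1_mem_map.1 hx) _ ((eL c).1 hc) ?_
    rw [mul_smul, mul_smul, smul_inv_smul, e]
  · intro x hx
    rw [eW]
    have := r.sq _ (ln1_mem_map.1 hx)
    convert this using 1
    group

theorem ln1_comm (r : Af Q a b R) {x y : G} (hx : x ∈ R) (hy : y ∈ R) :
    x * y * x⁻¹ * y⁻¹ ∈ Wg Q a b ∧ (x * y * x⁻¹ * y⁻¹) * (x * y * x⁻¹ * y⁻¹) = 1 := by
  have h1 := r.sq _ (R.mul_mem hx hy)
  have h2 := r.sq _ hx
  have h3 := r.sq _ hy
  have c2 : y * (x * x) = (x * x) * y := mem_Wg.1 h2 y (r.le hy)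
  have hW : x * y * x⁻¹ * y⁻¹ ∈ Wg Q a b := by
    have e : x * y * x⁻¹ * y⁻¹ = (x * y * (x * y)) * (x * x)⁻¹ * (y * y)⁻¹ := by
      have e2 : (x * x)⁻¹ = y⁻¹ * (x * x)⁻¹ * y := by
        have : (x * x) = y⁻¹ * (x * x) * y := by
          rw [mul_assoc y⁻¹, ← c2]; group
        conv_lhs => rw [this]
        group
      rw [e2]; group
    rw [e]
    exact (Wg Q a b).mul_mem ((Wg Q a b).mul_mem h1 ((Wg Q a b).inv_mem h2))
      ((Wg Q a b).inv_mem h3)
  refine ⟨hW, ?_⟩
  set c := x * y * x⁻¹ * y⁻¹ with hc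
  have cx : x * c = c * x := mem_Wg.1 hW x (r.le hx)
  have e1 : x * y = c * y * x := by rw [hc]; group
  have e2 : x * x * y = c * c * y * (x * x) := by
    calc x * x * y = x * (x * y) := by group
      _ = x * (c * y * x) := by rw [e1]
      _ = (x * c) * y * x := by group
      _ = c * (x * y) * x := by rw [cx]; group
      _ = c * (c * y * x) * x := by rw [← e1]
      _ = c * c * y * (x * x) := by group
  rw [← c2, mul_assoc (c * c)] at e2
  exact (mul_eq_right.1 e2.symm)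

theorem Af.sq_W (r : Af Q a b R) (h : Fam p Q) {z : G} (hz : z ∈ R) (hw : z ∈ Wg Q a b) :
    z * z = 1 := by
  classical
  set K := Kg Q a b with hK
  set R' : Subgroup K := R.subgroupOf K with hR'
  have hQa : Q a ≤ K := le_sup_left
  have hQb : Q b ≤ K := le_sup_right
  haveI hn : R'.Normal := ⟨fun n hn g => by
    rw [hR', mem_subgroupOf] at hn ⊢
    exact r.nrm _ (Kg_le_Ng Q a b g.2) _ hn⟩
  have h2 : IsPGroup 2 R' := r.two.comap_subtype
  have h2A : IsPGroup 2 (Abelianization R') :=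
    h2.of_surjective Abelianization.of (QuotientGroup.mk_surjective)
  have hodd : Nat.Coprime p 2 := (Nat.coprime_primes h.pr Nat.prime_two).2 h.od
  -- index
  have hidx : R'.index ∣ p := by
    have hs : Function.Surjective ((QuotientGroup.mk' R').comp (inclusion hQa)) := by
      intro q
      obtain ⟨k, rfl⟩ := QuotientGroup.mk_surjective q
      obtain ⟨x, hx, e⟩ := r.sup a (left_mem_Li Q a b) k k.2
      refine ⟨⟨x, hx⟩, ?_⟩
      rw [MonoidHom.comp_apply, QuotientGroup.mk'_apply, QuotientGroup.eq, hR', mem_subgroupOf]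
      exact e
    have := Subgroup.card_dvd_of_surjective _ hs
    rwa [h.card] at this
  let T : K →* Abelianization R' := MonoidHom.transfer (Abelianization.of (G := R'))
  have hkill : ∀ (c : Ω) (k : K), (k : G) ∈ Q c → T k = 1 := by
    intro c k hk
    obtain ⟨n, hn⟩ := h2A (T k)
    have e : k ^ p = 1 := Subtype.ext (by simpa using h.pow_eq hk)
    have e' : T k ^ p = 1 := by rw [← map_pow, e, map_one]
    have d1 := orderOf_dvd_of_pow_eq_one hn
    have d2 := orderOf_dvd_of_pow_eq_one e'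
    exact orderOf_eq_one_iff.1 (Nat.eq_one_of_dvd_coprimes (hodd.pow_right n) d2 d1)
  have hT : ∀ k : K, T k = 1 := by
    have hle : K ≤ T.ker.map K.subtype := by
      refine sup_le ?_ ?_
      · intro x hx
        exact ⟨⟨x, hQa hx⟩, hkill a _ hx, rfl⟩
      · intro x hx
        exact ⟨⟨x, hQb hx⟩, hkill b _ hx, rfl⟩
    intro k
    obtain ⟨k', hk', e⟩ := hle k.2
    have : k' = k := Subtype.ext e
    rw [← this]; exact hk'
  let zK : K := ⟨z, r.le hz⟩
  have key : ∀ (k : ℕ) (g₀ : K), g₀⁻¹ * zK ^ k * g₀ ∈ R' → g₀⁻¹ * zK ^ k * g₀ = zK ^ k := by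
    intro k g₀ _
    have c : Commute g₀ zK := Subtype.ext (mem_Wg.1 hw g₀ g₀.2)
    rw [mul_assoc, ← (c.pow_right k).eq]; group
  have e := MonoidHom.transfer_eq_pow (Abelianization.of (G := R')) zK key
  have e1 := hT zK
  have e2 : Abelianization.of (G := R') ⟨zK ^ R'.index, MonoidHom.transfer_eq_pow_aux zK key⟩ = 1 :=
    e.symm.trans e1
  let C : Subgroup R' :=
    { carrier := {x | ((x : K) : G) ∈ Wg Q a b ∧ ((x : K) : G) * ((x : K) : G) = 1}
      one_mem' := ⟨(Wg Q a b).one_mem, by simp⟩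
      mul_mem' := by
        rintro x y ⟨hx, ex⟩ ⟨hy, ey⟩
        refine ⟨(Wg Q a b).mul_mem hx hy, ?_⟩
        have c : ((y : K) : G) * ((x : K) : G) = ((x : K) : G) * ((y : K) : G) :=
          mem_Wg.1 hx _ (y : K).2
        show ((x : K) : G) * ((y : K) : G) * (((x : K) : G) * ((y : K) : G)) = 1
        calc ((x : K) : G) * ((y : K) : G) * (((x : K) : G) * ((y : K) : G))
            = ((x : K) : G) * (((y : K) : G) * ((x : K) : G)) * ((y : K) : G) := by group
          _ = (((x : K) : G) * ((x : K) : G)) * (((y : K) : G) * ((y : K) : G)) := by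
              rw [c]; group
          _ = 1 := by rw [ex, ey, one_mul]
      inv_mem' := by
        rintro x ⟨hx, ex⟩
        refine ⟨(Wg Q a b).inv_mem hx, ?_⟩
        show ((x : K) : G)⁻¹ * ((x : K) : G)⁻¹ = 1
        rw [← _root_.mul_inv_rev, ex, _root_.inv_one] }
  have hC : commutator R' ≤ C := by
    rw [_root_.commutator_def, Subgroup.commutator_le]
    intro x _ y _
    exact ln1_comm r (x := ((x : K) : G)) (y := ((y : K) : G)) x.2 y.2
  have e3 : (⟨zK ^ R'.index, MonoidHom.transfer_eq_pow_aux zK key⟩ : R') ∈ C :=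
    hC ((QuotientGroup.eq_one_iff _).1 e2)
  have e4 : z ^ R'.index * z ^ R'.index = 1 := by
    have := e3.2
    simpa [zK] using this
  have e5 : (z * z) ^ R'.index = 1 := by
    rw [← e4, (Commute.refl z).mul_pow]
  obtain ⟨n, hn⟩ := r.two ⟨z * z, R.mul_mem hz hz⟩
  have hn' : (z * z) ^ 2 ^ n = 1 := by
    have := congrArg Subtype.val hn
    simpa using this
  have d1 := orderOf_dvd_of_pow_eq_one hn'
  have d2 := (orderOf_dvd_of_pow_eq_one e5).trans hidx
  exact orderOf_eq_one_iff.1 (Nat.eq_one_of_dvd_coprimes (hodd.pow_right n) d2 d1)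

theorem Af.dich (r : Af Q a b R) (h : St p Q) (hab : a ≠ b) :
    (∀ x ∈ R, x * x = 1) ∨ ∀ x ∈ R, x * x = 1 → x ∈ Wg Q a b := by
  by_cases hB : ∀ x ∈ R, x * x = 1 → x ∈ Wg Q a b
  · exact Or.inr hB
  left
  push Not at hB
  obtain ⟨x, hx, ex, hxW⟩ := hB
  intro y hy
  by_cases hyW : y ∈ Wg Q a b
  · exact r.sq_W h.toFam hy hyW
  have ha := left_mem_Li Q a b
  have xa : a ≠ x • a := fun e => hxW (r.ker x hx a ha e.symm)
  have ya : a ≠ y • a := fun e => hyW (r.ker y hy a ha e.symm)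
  have hxa : x • a ∈ Li Q a b := h.toFam.N_inv (Kg_le_Ng Q a b (r.le hx)) ha
  have hya : y • a ∈ Li Q a b := h.toFam.N_inv (Kg_le_Ng Q a b (r.le hy)) ha
  obtain ⟨g, hg, ga, gx⟩ := h.N_two hab ha hxa ha hya xa ya
  have hs : g * x * g⁻¹ ∈ R := r.nrm g hg x hx
  set s := g * x * g⁻¹ with hs'
  have ss : s * s = 1 := by
    have : s * s = g * (x * x) * g⁻¹ := by rw [hs']; group
    rw [this, ex]; group
  have sa : s • a = y • a := by
    have : g⁻¹ • a = a := by rw [inv_smul_eq_iff, ga]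
    rw [hs', mul_smul, mul_smul, this, gx]
  have hzR : s⁻¹ * y ∈ R := R.mul_mem (R.inv_mem hs) hy
  have hzW : s⁻¹ * y ∈ Wg Q a b := by
    refine r.ker _ hzR a ha ?_
    rw [mul_smul, ← sa, inv_smul_smul]
  have zz := r.sq_W h.toFam hzR hzW
  have c : s * (s⁻¹ * y) = (s⁻¹ * y) * s := mem_Wg.1 hzW s (r.le hs)
  set z := s⁻¹ * y with hz
  have ey : y = s * z := by rw [hz]; group
  rw [ey]
  calc s * z * (s * z) = s * (z * s) * z := by group
    _ = (s * s) * (z * z) := by rw [← c]; group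
    _ = 1 := by rw [ss, zz, one_mul]

end H97.CYN
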