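import Cfsg.Agent.Lib.CYN.Bas2

set_option autoImplicit false
set_option linter.unusedSectionVars false

namespace H97.CYN

open MulAction Subgroup Matrix H51.HK
open scoped MatrixGroups

variable {G Ω : Type} [Group G] [MulAction G Ω] [Finite G] [Finite Ω] {p : ℕ} {Q : Ω → Subgroup G}

/-- a regular normal subgroup of a doubly transitive group has prime exponent -/
theorem St.ln2_exp (h : St p Q) {T : Subgroup G} (hT : T.Normal) (tr : ∀ x y : Ω, ∃ n ∈ T, n • x = y)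
    (sr : ∀ x : Ω, ∀ n ∈ T, n • x = x → n = 1) : ∃ r : ℕ, r.Prime ∧ ∀ t ∈ T, t ^ r = 1 := by
  obtain ⟨a, b, hab⟩ := h.nt
  obtain ⟨t0, h0, e0⟩ := tr a b
  have n0 : orderOf t0 ≠ 1 := fun e => hab (by rw [← e0, orderOf_eq_one_iff.1 e, one_smul])
  obtain ⟨r, hr, hd⟩ := Nat.exists_prime_and_dvd n0
  have ho : orderOf (t0 ^ (orderOf t0 / r)) = r := orderOf_pow_orderOf_div (orderOf_pos t0).ne' hd
  generalize hs : t0 ^ (orderOf t0 / r) = s at ho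
  have hsT : s ∈ T := hs ▸ pow_mem h0 _
  have s1 : s ≠ 1 := fun e => hr.one_lt.ne' (by rw [← ho, e, orderOf_one])
  refine ⟨r, hr, fun t ht => ?_⟩
  by_cases t1 : t = 1
  · rw [t1, one_pow]
  obtain ⟨g, ga, gs⟩ := h.two a (s • a) a (t • a) (fun e => s1 (sr a s hsT e.symm))
    fun e => t1 (sr a t ht e.symm)
  have e : t⁻¹ * (g * s * g⁻¹) = 1 := sr a _ (mul_mem (inv_mem ht) (hT.conj_mem s hsT g)) (by
    rw [mul_smul, mul_smul, mul_smul, inv_smul_eq_iff.2 ga.symm, gs, inv_smul_smul])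
  rw [inv_mul_eq_one.1 e, conj_pow, ← ho, pow_orderOf_eq_one, mul_one, mul_inv_cancel]

theorem ln2_pow {P : Subgroup G} {x k : G} (hx : ∀ t ∈ P, x⁻¹ * t * x⁻¹⁻¹ ∈ P) (hk : x⁻¹ * k ∈ P)
    (n : ℕ) : (x ^ n)⁻¹ * k ^ n ∈ P := by
  induction n with
  | zero => simp
  | succ n ih =>
    have e : (x ^ (n + 1))⁻¹ * k ^ (n + 1) = x⁻¹ * ((x ^ n)⁻¹ * k ^ n) * x⁻¹⁻¹ * (x⁻¹ * k) := by
      rw [pow_succ, pow_succ]; group
    rw [e]
    exact mul_mem (hx _ ih) hk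

theorem Fam.ln2_sup (h : Fam p Q) {a b : Ω} {R : Subgroup G}
    (hn : ∀ g ∈ Kg Q a b, ∀ t ∈ R, g * t * g⁻¹ ∈ R)
    (tr : ∀ c ∈ Li Q a b, ∀ d ∈ Li Q a b, ∃ t ∈ R, t • c = d) {c : Ω} (hc : c ∈ Li Q a b) :
    ∀ k ∈ Kg Q a b, ∃ x ∈ Q c, x⁻¹ * k ∈ R := by
  let S : Subgroup G :=
    { carrier := {k | ∃ x ∈ Q c, x⁻¹ * k ∈ R}
      one_mem' := ⟨1, one_mem _, by simp⟩
      mul_mem' := by
        rintro k k' ⟨x, hx, e⟩ ⟨x', hx', e'⟩
        refine ⟨x * x', mul_mem hx hx', ?_⟩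
        have : (x * x')⁻¹ * (k * k') = x'⁻¹ * (x⁻¹ * k) * x'⁻¹⁻¹ * (x'⁻¹ * k') := by group
        rw [this]
        exact mul_mem (hn _ (inv_mem (hc hx')) _ e) e'
      inv_mem' := by
        rintro k ⟨x, hx, e⟩
        refine ⟨x⁻¹, inv_mem hx, ?_⟩
        have : x⁻¹⁻¹ * k⁻¹ = x * (x⁻¹ * k)⁻¹ * x⁻¹ := by group
        rw [this]
        exact hn _ (hc hx) _ (inv_mem e) }
  have key : ∀ d ∈ Li Q a b, Q d ≤ S := fun d hd y hy => by
    obtain ⟨t, ht, rfl⟩ := tr c hc d hd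
    refine ⟨t⁻¹ * y * t, (h.cj_iff t _ c).1 (by convert hy using 1; group), ?_⟩
    have : (t⁻¹ * y * t)⁻¹ * y = t⁻¹ * (y⁻¹ * t * y⁻¹⁻¹) := by group
    rw [this]
    exact mul_mem (inv_mem ht) (hn _ (inv_mem (hd hy)) _ ht)
  exact fun k hk => (sup_le (key a (left_mem_Li Q a b)) (key b (right_mem_Li Q a b)) : Kg Q a b ≤ S) hk

theorem ln2_odd {H : Type*} [Group H] [Finite H] {m : ℕ} (hm : Odd m) (h : ∀ g : H, g ^ m = 1) :
    Odd (Nat.card H) := by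
  rw [← Nat.not_even_iff_odd, even_iff_two_dvd]
  intro h2
  obtain ⟨g, hg⟩ := exists_prime_orderOf_dvd_card' 2 h2
  exact (Nat.not_even_iff_odd.2 hm) (even_iff_two_dvd.2 (hg ▸ orderOf_dvd_of_pow_eq_one (h g)))

theorem Fam.ln2_odd (h : Fam p Q) {a b : Ω} {m : ℕ} (hm : Odd m)
    (hw : ∀ k ∈ Kg Q a b, k ^ m ∈ Wg Q a b) : Odd (Nat.card (Kg Q a b)) := by
  have hi : Odd (center (Kg Q a b)).index := by
    refine CYN.ln2_odd hm fun g => ?_
    obtain ⟨k, rfl⟩ := QuotientGroup.mk_surjective g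
    rw [← QuotientGroup.mk_pow, QuotientGroup.eq_one_iff, mem_center_iff]
    exact fun y => Subtype.ext (mem_Wg.1 (hw k k.2) y y.2)
  have hm : ∀ x y : Kg Q a b, (x * y) ^ (center (Kg Q a b)).index =
      x ^ (center (Kg Q a b)).index * y ^ (center (Kg Q a b)).index := fun x y =>
    congrArg Subtype.val ((MonoidHom.transferCenterPow (Kg Q a b)).map_mul x y)
  let S : Subgroup (Kg Q a b) :=
    { carrier := {g | g ^ ((center (Kg Q a b)).index * p) = 1}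
      one_mem' := one_pow _
      mul_mem' := fun {x y} hx hy => by
        have k : Commute (x ^ (center (Kg Q a b)).index) (y ^ (center (Kg Q a b)).index) :=
          mem_center_iff.1 ((center (Kg Q a b)).pow_index_mem y) _
        simp only [Set.mem_ofPred_eq, pow_mul] at *
        rw [hm, k.mul_pow, hx, hy, one_mul]
      inv_mem' := fun {x} hx => by
        simp only [Set.mem_ofPred_eq] at *
        rw [inv_pow, hx, inv_one] }
  have key : ∀ d ∈ Li Q a b, Q d ≤ S.map (Kg Q a b).subtype := fun d hd y hy => by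
    refine ⟨⟨y, hd hy⟩, Subtype.ext ?_, rfl⟩
    change y ^ _ = 1
    rw [mul_comm, pow_mul, h.pow_eq hy, one_pow]
  refine CYN.ln2_odd (hi.mul h.odd) fun g => ?_
  obtain ⟨g', hg', e⟩ := (sup_le (key a (left_mem_Li Q a b)) (key b (right_mem_Li Q a b)) :
    Kg Q a b ≤ _) g.2
  obtain rfl : g' = g := Subtype.ext e
  exact hg'

theorem ln2_four {H : Type*} [Group H] {x y : H} (hx : x * x ∈ center H) (hy : y * y ∈ center H)
    (hz : x * y * (x * y) ∈ center H) : (x * y) ^ 4 = (x * x) ^ 2 * (y * y) ^ 2 := by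
  obtain ⟨c, hc, e⟩ : ∃ c ∈ center H, y * x = c * (x * y) := by
    refine ⟨x * y * (x * y) * ((y * y)⁻¹ * (x * x)⁻¹), mul_mem hz (mul_mem (inv_mem hy) (inv_mem hx)), ?_⟩
    calc y * x = x⁻¹ * (x * y * (x * y)) * y⁻¹ := by group
      _ = x * y * (x * y) * (x⁻¹ * (y * y)⁻¹) * y := by rw [mem_center_iff.1 hz]; group
      _ = _ := by rw [mem_center_iff.1 (inv_mem hy)]; group
  have hc' := mem_center_iff.1 hc
  have c2 : c * c = 1 := by
    have e1 : y * (x * x) = c * c * (x * x * y) := by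
      calc y * (x * x) = y * x * x := by group
        _ = c * (x * y) * x := by rw [e]
        _ = c * x * (y * x) := by group
        _ = c * (x * c) * (x * y) := by rw [e]; group
        _ = _ := by rw [hc' x]; group
    rw [mem_center_iff.1 hx y] at e1
    exact (mul_eq_right.1 e1.symm)
  have e2 : x * y * (x * y) = c * (x * x) * (y * y) := by
    calc x * y * (x * y) = x * (y * x) * y := by group
      _ = x * c * (x * y) * y := by rw [e]; group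
      _ = _ := by rw [hc' x]; group
  have k1 : Commute c (x * x) := (hc' _).symm
  have k2 : Commute (c * (x * x)) (y * y) := mem_center_iff.1 hy _
  rw [show 4 = 2 * 2 from rfl, pow_mul, sq (x * y), e2, k2.mul_pow, k1.mul_pow, sq c, c2, one_mul]

theorem St.ln2_two (h : St p Q) {a b : Ω} (hab : a ≠ b) {P : Subgroup G}
    (hn : ∀ g ∈ Ng Q a b, ∀ t ∈ P, g * t * g⁻¹ ∈ P)
    (tr : ∀ c ∈ Li Q a b, ∀ d ∈ Li Q a b, ∃ t ∈ P, t • c = d)
    (sr : ∀ t ∈ P, ∀ c ∈ Li Q a b, t • c = c → t ∈ Wg Q a b)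
    (sq : ∀ t ∈ P, t * t ∈ Wg Q a b) : ∃ R, Af Q a b R := by
  have cen : ∀ x (hx : x ∈ Kg Q a b), x ∈ P →
      (⟨x, hx⟩ * ⟨x, hx⟩ : Kg Q a b) ∈ center (Kg Q a b) := fun x hx hP =>
    mem_center_iff.2 fun y => Subtype.ext (mem_Wg.1 (sq x hP) y y.2)
  let R : Subgroup G :=
    { carrier := {k | k ∈ Kg Q a b ∧ k ∈ P ∧ ∃ i, k ^ 2 ^ i = 1}
      one_mem' := ⟨one_mem _, one_mem _, 0, one_pow _⟩
      mul_mem' := by
        rintro x y ⟨hx, px, i, ei⟩ ⟨hy, py, j, ej⟩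
        refine ⟨mul_mem hx hy, mul_mem px py, 2 + (i + j), ?_⟩
        have e : (x * y) ^ 4 = (x * x) ^ 2 * (y * y) ^ 2 := congrArg Subtype.val
          (ln2_four (cen x hx px) (cen y hy py) (cen _ (mul_mem hx hy) (mul_mem px py)))
        have k : Commute (x * x) (y * y) := mem_Wg.1 (sq y py) _ (mul_mem hx hx)
        have e1 : ((x * x) ^ 2) ^ 2 ^ (i + j) = 1 := by
          rw [← pow_two, ← pow_mul, ← pow_mul, pow_add, mul_comm 2, mul_comm 2, mul_assoc, mul_assoc,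
            pow_mul, ei, one_pow]
        have e2 : ((y * y) ^ 2) ^ 2 ^ (i + j) = 1 := by
          rw [← pow_two, ← pow_mul, ← pow_mul, add_comm, pow_add, mul_comm 2, mul_comm 2, mul_assoc,
            mul_assoc, pow_mul, ej, one_pow]
        rw [pow_add, pow_mul, show 2 ^ 2 = 4 from rfl, e, (k.pow_pow 2 2).mul_pow, e1, e2, one_mul]
      inv_mem' := by
        rintro x ⟨hx, px, i, ei⟩
        exact ⟨inv_mem hx, inv_mem px, i, by rw [inv_pow, ei, inv_one]⟩ }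
  have nrm : ∀ g ∈ Ng Q a b, ∀ r ∈ R, g * r * g⁻¹ ∈ R := by
    rintro g hg r ⟨hr, pr, i, ei⟩
    exact ⟨(mem_normalizer_iff.1 hg r).1 hr, hn g hg r pr, i, by
      rw [conj_pow, ei, mul_one, mul_inv_cancel]⟩
  have trR : ∀ c ∈ Li Q a b, ∀ d ∈ Li Q a b, ∃ r ∈ R, r • c = d := fun c hc d hd => by
    obtain ⟨l, hl, el⟩ := h.gleason (M := Li Q a b)
      (fun e he x hx c hc => h.N_inv (Kg_le_Ng Q a b (he hx)) hc) hc hd
    rw [Lt_Li] at hl
    obtain ⟨x, hx, hk⟩ := h.ln2_sup (fun g hg => hn g (Kg_le_Ng Q a b hg)) tr hd l hl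
    have hK : x⁻¹ * l ∈ Kg Q a b := mul_mem (inv_mem (hd hx)) hl
    have ek : (x⁻¹ * l) • c = d := by rw [mul_smul, el, h.fix d _ (inv_mem hx)]
    generalize x⁻¹ * l = k at hk hK ek
    obtain ⟨i, m, ⟨j, rfl⟩, ho⟩ := Nat.exists_eq_two_pow_mul_odd (orderOf_pos k).ne'
    refine ⟨k ^ (2 * j + 1), ⟨pow_mem hK _, pow_mem hk _, i, ?_⟩, ?_⟩
    · rw [← pow_mul, mul_comm, ← ho, pow_orderOf_eq_one]
    · rw [pow_succ', pow_mul, mul_smul, pow_two, (h.W_iff hab).1 (pow_mem (sq k hk) j) c hc, ek]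
  exact ⟨R, fun g => ⟨_, Subtype.ext g.2.2.2.choose_spec⟩, fun _ hr => hr.1, nrm,
    fun c hc => h.ln2_sup (fun g hg => nrm g (Kg_le_Ng Q a b hg)) trR hc, trR,
    fun r hr => sr r hr.2.1, fun r hr => sq r hr.2.1⟩

theorem St.ln_rns (h : St p Q) {a b : Ω} (hab : a ≠ b) {X : Type} [Group X] [Finite X]
    [MulAction X (Li Q a b)] {f : Ng Q a b →* X} (i : Im (Ng Q a b) (Li Q a b) f)
    (hr : RNS X (Li Q a b)) : Odd (Nat.card (Kg Q a b)) ∨ ∃ R, Af Q a b R := by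
  obtain ⟨T, hT, trT, srT⟩ := hr
  have hs := i.st h.toFam (fun c hc => le_trans hc (Kg_le_Ng Q a b))
    ⟨a, left_mem_Li Q a b, b, right_mem_Li Q a b, hab⟩
    fun _ h1 _ h2 _ h3 _ h4 e e' => h.N_two hab h1 h2 h3 h4 e e'
  obtain ⟨r, rp, hr⟩ := hs.ln2_exp hT trT srT
  obtain ⟨P, hP⟩ : ∃ P : Subgroup G, ∀ t, t ∈ P ↔ ∃ g : Ng Q a b, f g ∈ T ∧ (g : G) = t :=
    ⟨(T.comap f).map (Ng Q a b).subtype, fun t => ⟨fun ⟨g, h, e⟩ => ⟨g, h, e⟩, fun ⟨g, h, e⟩ => ⟨g, h, e⟩⟩⟩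
  have hn : ∀ g ∈ Ng Q a b, ∀ t ∈ P, g * t * g⁻¹ ∈ P := fun g hg t ht => by
    obtain ⟨s, hs, rfl⟩ := (hP t).1 ht
    refine (hP _).2 ⟨⟨g, hg⟩ * s * ⟨g, hg⟩⁻¹, ?_, rfl⟩
    rw [map_mul, map_mul, map_inv]
    exact hT.conj_mem _ hs _
  have tr : ∀ c ∈ Li Q a b, ∀ d ∈ Li Q a b, ∃ t ∈ P, t • c = d := fun c hc d hd => by
    obtain ⟨n, hn, e⟩ := trT ⟨c, hc⟩ ⟨d, hd⟩
    obtain ⟨g, rfl⟩ := i.surj n
    exact ⟨g, (hP _).2 ⟨g, hn, rfl⟩, (i.smul_iff g _ _).1 e⟩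
  have sr : ∀ t ∈ P, ∀ c ∈ Li Q a b, t • c = c → t ∈ Wg Q a b := fun t ht c hc e => by
    obtain ⟨s, hs, rfl⟩ := (hP t).1 ht
    exact (h.W_iff hab).2 ((i.one_iff s).1 (srT ⟨c, hc⟩ _ hs ((i.smul_iff s _ _).2 e)))
  have pw : ∀ t ∈ P, t ^ r ∈ Wg Q a b := fun t ht => by
    obtain ⟨s, hs, rfl⟩ := (hP t).1 ht
    exact (h.W_iff hab).2 ((i.one_iff (s ^ r)).1 (by rw [map_pow, hr _ hs]))
  rcases rp.eq_two_or_odd' with rfl | ro
  · exact Or.inr (h.ln2_two hab hn tr sr fun t ht => pow_two t ▸ pw t ht)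
  · refine Or.inl (h.ln2_odd (h.odd.mul ro) fun k hk => ?_)
    obtain ⟨x, hx, e⟩ := h.ln2_sup (fun g hg => hn g (Kg_le_Ng Q a b hg)) tr (left_mem_Li Q a b) k hk
    have := ln2_pow (hn _ (inv_mem (Kg_le_Ng Q a b (left_mem_Li Q a b hx)))) e p
    rw [h.pow_eq hx, inv_one, one_mul] at this
    rw [pow_mul]
    exact pw _ this

end H97.CYN
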