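import Cfsg.Agent.Lib.CYN.LpD

set_option autoImplicit false
set_option linter.unusedSectionVars false
set_option linter.unusedVariables false

namespace H97.CYN

open MulAction Subgroup Matrix H51.HK
open scoped MatrixGroups

variable {G Ω : Type} [Group G] [MulAction G Ω] [Finite G] [Finite Ω] {p : ℕ} {Q : Ω → Subgroup G}

variable {a b c d : Ω} {z z' g : G}

theorem Pl.z_ne (h : Pl p Q) (hab : a ≠ b) (hz : Zs Q a b z) : z ≠ 1 := by
  rintro rfl
  obtain ⟨c, hc⟩ := h.toSt.not_col h.nc hab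
  exact hc ((hz.fix c).1 (one_smul _ _))

theorem Pl.z_W (h : Pl p Q) (hab : a ≠ b) (hz : Zs Q a b z) : z ∈ Wg Q a b := by
  exact (h.toFam.W_iff hab).2 fun x hx => (hz.fix x).2 hx

theorem Pl.z_uniq (h : Pl p Q) (hab : a ≠ b) (hz : Zs Q a b z) (hz' : Zs Q a b z') : z' = z := by
  exact (h.uq a b hab z hz z' hz'.mem (h.z_W hab hz')).resolve_left (h.z_ne hab hz')

theorem Pl.z_cj (h : Pl p Q) (hz : Zs Q a b z) (g : G) : Zs Q (g • a) (g • b) (g * z * g⁻¹) := by
  refine ⟨(h.toFam.K_cj g z a b).2 hz.mem, ?_, fun x => ?_⟩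
  · calc g * z * g⁻¹ * (g * z * g⁻¹) = g * (z * z) * g⁻¹ := by group
      _ = 1 := by rw [hz.sq]; group
  · rw [mul_smul, mul_smul, ← eq_inv_smul_iff, hz.fix, ← h.toFam.L_cj g, smul_inv_smul]

theorem Pl.z_line (h : Pl p Q) (hab : a ≠ b) (hz : Zs Q a b z) (hc : c ∈ Li Q a b)
    (hd : d ∈ Li Q a b) (hcd : c ≠ d) : Zs Q c d z := by
  exact ⟨by rw [h.toSt.K_eq hab hc hd hcd]; exact hz.mem, hz.sq,
    by rw [h.toSt.L_eq hab hc hd hcd]; exact hz.fix⟩

/-- `C(z) = N(K)` -/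
theorem Pl.comm_iff (h : Pl p Q) (hab : a ≠ b) (hz : Zs Q a b z) :
    g * z = z * g ↔ g ∈ Ng Q a b := by
  constructor
  · intro e
    have k : ∀ x ∈ Li Q a b, g • x ∈ Li Q a b := fun x hx => by
      rw [← hz.fix, ← mul_smul, ← e, mul_smul, (hz.fix x).2 hx]
    exact h.toFam.mem_N (k a (left_mem_Li Q a b)) (k b (right_mem_Li Q a b))
  · intro hg
    have ne : g • a ≠ g • b := fun e => hab (MulAction.injective g e)
    have := h.z_uniq ne (h.z_line hab hz (h.toFam.N_inv hg (left_mem_Li Q a b))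
      (h.toFam.N_inv hg (right_mem_Li Q a b)) ne) (h.z_cj hz g)
    rw [mul_inv_eq_iff_eq_mul] at this
    exact this

/-- `Q a` is transitive on the remaining points of a line -/
theorem Pl.Q_tr (h : Pl p Q) (hab : a ≠ b) (hc : c ∈ Li Q a b) (hca : c ≠ a) :
    ∃ x ∈ Q a, x • b = c := by
  have sub : (fun x : G => x • b) '' (Q a : Set G) ⊆ Li Q a b \ {a} := by
    rintro _ ⟨x, hx, rfl⟩
    refine ⟨h.toFam.N_inv (Kg_le_Ng Q a b (mem_sup_left hx)) (right_mem_Li Q a b), fun e => hab ?_⟩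
    exact (MulAction.injective x ((Set.mem_singleton_iff.1 e).trans (h.fix a x hx).symm)).symm
  have c1 : ((fun x : G => x • b) '' (Q a : Set G)).ncard = p := by
    rw [Set.InjOn.ncard_image fun x hx y hy e => h.toFam.bas2_eq hab.symm hy hx e, ← h.card a]
    rfl
  have c2 : (Li Q a b \ {a}).ncard = p := by
    rw [Set.ncard_sdiff_singleton_of_mem (left_mem_Li Q a b), h.len a b hab]; rfl
  have := Set.eq_of_subset_of_ncard_le sub (by rw [c1, c2])
  obtain ⟨x, hx, e⟩ := this.symm.subset ⟨hc, hca⟩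
  exact ⟨x, hx, e⟩

/-- an invariant set through `a` with an even number of points meets the line again -/
theorem Pl.meet (h : Pl p Q) (hz : Zs Q a b z) {Γ : Set Ω} (ha : a ∈ Γ) (he : Even Γ.ncard)
    (hi : ∀ x ∈ Γ, z • x ∈ Γ) : ∃ d ∈ Γ, d ≠ a ∧ d ∈ Li Q a b := by
  have : Fact (Nat.Prime 2) := ⟨Nat.prime_two⟩
  have mz : ∀ g ∈ zpowers z, g = 1 ∨ g = z := fun g hg => by
    obtain ⟨n, rfl⟩ := mem_powers_iff_mem_zpowers.2 hg
    show z ^ n = 1 ∨ z ^ n = z
    rcases Nat.even_or_odd' n with ⟨k, rfl | rfl⟩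
    · left; rw [pow_mul, pow_two, hz.sq, one_pow]
    · right; rw [pow_succ, pow_mul, pow_two, hz.sq, one_pow, one_mul]
  have pg : IsPGroup 2 (zpowers z) := fun g => ⟨1, Subtype.ext (by
    show (g : G) ^ 2 ^ 1 = 1
    rcases mz g g.2 with e | e <;> rw [e]
    · simp
    · rw [pow_one, pow_two, hz.sq])⟩
  have := x_modEq (p := 2) pg (F := Γ) fun g hg x hx => by
    rcases mz g hg with rfl | rfl
    exacts [by rwa [one_smul], hi x hx]
  by_contra k
  push Not at k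
  have e : {x | x ∈ Γ ∧ ∀ g ∈ zpowers z, g • x = x} = {a} := by
    ext x
    constructor
    · rintro ⟨h1, h2⟩
      by_contra ne
      exact k x h1 ne ((hz.fix x).1 (h2 z (mem_zpowers z)))
    · rintro rfl
      refine ⟨ha, fun g hg => ?_⟩
      rcases mz g hg with rfl | rfl
      exacts [one_smul _ _, (hz.fix _).2 (left_mem_Li Q _ b)]
  rw [e, Set.ncard_singleton] at this
  obtain ⟨n, hn⟩ := he
  unfold Nat.ModEq at this
  omega

/-- the involutions of the lines through `a` do not commute -/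
theorem Pl.iso (h : Pl p Q) (hab : a ≠ b) (hac : a ≠ c) (hz : Zs Q a b z) (hz' : Zs Q a c z')
    (e : z * z' = z' * z) : z' = z := by
  have hN := (h.comm_iff hab hz).1 e.symm
  obtain ⟨d, h1, h2, h3⟩ := h.meet hz' (left_mem_Li Q a b)
    (by rw [h.len a b hab]; exact h.toFam.odd.add_one) fun x hx => h.toFam.N_inv hN hx
  exact h.z_uniq h2.symm (h.z_line hab hz (left_mem_Li Q a b) h1 h2.symm)
    (h.z_line hac hz' (left_mem_Li Q a c) h3 h2.symm)

/-- a subgroup through `a` containing `Q a` and the products `z z'` of odd order is transitive -/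
theorem Pl.tr_of_zz (h : Pl p Q) (hab : a ≠ b) (hac : a ≠ c) (hz : Zs Q a b z) (hz' : Zs Q a c z')
    (ho : Odd (orderOf (z * z'))) {M : Subgroup G} (hQ : Q a ≤ M) (hM : z * z' ∈ M) :
    ∃ m ∈ M, m • a = a ∧ m • b = c := by
  obtain ⟨j, hj⟩ := ho
  have zi : z⁻¹ = z := inv_eq_of_mul_eq_one_right hz.sq
  have zi' : z'⁻¹ = z' := inv_eq_of_mul_eq_one_right hz'.sq
  have s1 : z * (z * z') * z⁻¹ = (z * z')⁻¹ := by
    rw [← mul_assoc, hz.sq, one_mul, _root_.mul_inv_rev, zi, zi']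
  have s2 : z * (z * z') ^ j * z⁻¹ = ((z * z') ^ j)⁻¹ := by rw [← conj_pow, s1, inv_pow]
  have s3 : (z * z') ^ j * (z * z') ^ j * (z * z') = 1 := by
    rw [← pow_add, ← pow_succ, ← two_mul, ← hj, pow_orderOf_eq_one]
  have sa : (z * z') ^ j • a = a := by
    refine mem_stabilizer_iff.1 (pow_mem (mul_mem ?_ ?_) j)
    exacts [(hz.fix a).2 (left_mem_Li Q a b), (hz'.fix a).2 (left_mem_Li Q a c)]
  have c1 : Commute (z * z') ((z * z') ^ j) := (Commute.refl _).pow_right j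
  have mM := pow_mem hM j
  generalize (z * z') ^ j = m at s2 s3 sa c1 mM
  have s4 : z' * m = m * z := by
    have e1 : z * z' * m = m⁻¹ := by
      rw [c1.eq, eq_inv_iff_mul_eq_one, mul_assoc, c1.eq, ← mul_assoc, s3]
    calc z' * m = z * (z * z' * m) := by rw [← mul_assoc, ← mul_assoc, hz.sq, one_mul]
      _ = m * z := by rw [e1, ← s2, ← mul_assoc, ← mul_assoc, hz.sq, one_mul, zi]
  have l1 : m • b ∈ Li Q a c := by
    rw [← hz'.fix, ← mul_smul, s4, mul_smul, (hz.fix b).2 (right_mem_Li Q a b)]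
  obtain ⟨x, hx, e⟩ := h.Q_tr hac l1 fun e => hab (MulAction.injective m (sa.trans e.symm))
  refine ⟨x⁻¹ * m, mul_mem (inv_mem (hQ hx)) mM, ?_, ?_⟩
  · rw [mul_smul, sa, h.fix a _ (inv_mem hx)]
  · rw [mul_smul, ← e, inv_smul_smul]

/-- lemma H -/
theorem Pl.exists_h (h : Pl p Q) (hab : a ≠ b) (hz : Zs Q a b z) :
    ∃ g : G, g • a = a ∧ g • b = b ∧ g ^ (p - 1) = z := by
  obtain ⟨e, he⟩ := h.toSt.not_col h.nc hab
  obtain ⟨g, g1, g2⟩ := h.two e (z • e) a b (fun k => he ((hz.fix e).1 k.symm)) hab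
  obtain ⟨τ, -, t1, t2, t3⟩ := h.hh a b (g • a) (g • b) hab
    (fun e => hab (MulAction.injective g e)) z _ hz (h.z_cj hz g)
    (by rw [mul_smul, mul_smul, ← g1, inv_smul_smul, g2])
  exact ⟨_, t1, t2, t3⟩

theorem Pl.stab_W (h : Pl p Q) {U P : Subgroup G} (f : Fit Q a U P) {u : G} (hu : u ∈ P)
    (ub : u • b = b) : Tp Q u ∧ u ∈ Wg Q a b := by
  have t := h.toSt.tp (f.cen u (f.le hu))
  exact ⟨t, h.toFam.W_of_tp t (f.fix u (f.le hu)) ub⟩

/-- the centraliser of `z` in `P` is `Q a × P_b` -/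
theorem Pl.cent (h : Pl p Q) {U P : Subgroup G} (f : Fit Q a U P) (hab : a ≠ b) (hz : Zs Q a b z)
    {u : G} (hu : u ∈ P) : u * z = z * u ↔ ∃ x ∈ Q a, (x⁻¹ * u) • b = b := by
  constructor
  · intro e
    obtain ⟨x, hx, k⟩ := h.Q_tr hab (h.toFam.N_inv ((h.comm_iff hab hz).1 e) (right_mem_Li Q a b))
      fun k => hab (MulAction.injective u ((f.fix u (f.le hu)).trans k.symm))
    exact ⟨x, hx, by rw [mul_smul, ← k, inv_smul_smul]⟩
  · rintro ⟨x, hx, k⟩
    have e1 := mem_Wg.1 (h.stab_W f (mul_mem (inv_mem (f.QP hx)) hu) k).2 z hz.mem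
    have e2 := mem_Wg.1 (h.z_W hab hz) x (mem_sup_left hx)
    calc u * z = x * (x⁻¹ * u * z) := by group
      _ = z * u := by rw [← e1, ← mul_assoc, e2]; group

/-- the stabilisers in `P` of the points of `Fix P_b` are equal -/
theorem Pl.stab_eq (h : Pl p Q) {U P : Subgroup G} (f : Fit Q a U P) (hab : a ≠ b) (hac : a ≠ c)
    (hc : ∀ u ∈ P, u • b = b → u • c = c) : P ⊓ stabilizer G c = P ⊓ stabilizer G b := by
  obtain ⟨g, g1, g2⟩ := h.two a c a b hac hab
  symm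
  refine eq_of_le_of_card_ge (fun u hu => ⟨hu.1, hc u hu.1 hu.2⟩) ?_
  refine Nat.card_le_card_of_injective (fun u => ⟨g * u * g⁻¹, f.nP g g1 _ u.2.1, ?_⟩) ?_
  · have : (u : G) • c = c := u.2.2
    show (g * u * g⁻¹) • b = b
    rw [mul_smul, mul_smul, ← g2, inv_smul_smul, this]
  · intro u v e
    have := congrArg Subtype.val e
    exact Subtype.ext (by simpa using this)


end H97.CYN
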