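import Cfsg.Agent.Lib.CYN.Lp0

set_option autoImplicit false
set_option linter.unusedSectionVars false

namespace H97.CYN

open MulAction Subgroup Matrix H51.HK
open scoped MatrixGroups

variable {G Ω : Type} [Group G] [MulAction G Ω] [Finite G] [Finite Ω] {p : ℕ} {Q : Ω → Subgroup G}

theorem lp5_sqrt {w : G} (h : Odd (orderOf w)) : ∃ k : ℕ, w ^ k * w ^ k = w := by
  obtain ⟨m, hm⟩ := h
  exact ⟨m + 1, by rw [← pow_add, show m + 1 + (m + 1) = orderOf w + 1 by omega, pow_succ, pow_orderOf_eq_one,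
    one_mul]⟩

theorem lp5_odd {U : Subgroup G} (h : Odd (Nat.card U)) {u : G} (hu : u ∈ U) : Odd (orderOf u) :=
  h.of_dvd_nat (U.orderOf_dvd_natCard hu)

theorem lp5_cj (h : Fam p Q) {a : Ω} {g x : G} (ga : g • a = a) (hx : x ∈ Q a) : g * x * g⁻¹ ∈ Q a := by
  have := h.cj g a x hx
  rwa [ga] at this

theorem lp5_inv (h : Pl p Q) {a b : Ω} {U P : Subgroup G} (f : Fit Q a U P)
    (hs : ∀ b : Ω, a ≠ b → ∀ u ∈ P, u • b = b → u = 1) (hab : a ≠ b) {z : G} (hz : Zs Q a b z) {u : G}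
    (hu : u ∈ P) : z * u * z⁻¹ * u ∈ Q a := by
  have za : z • a = a := (hz.fix a).2 (left_mem_Li Q a b)
  have zi : z⁻¹ = z := inv_eq_of_mul_eq_one_right hz.sq
  have wP : u⁻¹ * (z * u * z⁻¹) ∈ P := P.mul_mem (P.inv_mem hu) (f.nP z za u hu)
  have wi : z * (u⁻¹ * (z * u * z⁻¹)) * z⁻¹ = (u⁻¹ * (z * u * z⁻¹))⁻¹ := by
    calc _ = z * u⁻¹ * z * u * (z * z)⁻¹ := by group
      _ = z * u⁻¹ * z⁻¹ * u := by rw [hz.sq, zi, inv_one, mul_one]
      _ = _ := by group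
  obtain ⟨k, hk⟩ := lp5_sqrt (lp5_odd f.odd (f.le wP))
  have si := congrArg (· ^ k) wi
  simp only [conj_pow, inv_pow] at si
  have sP := P.pow_mem wP k
  generalize (u⁻¹ * (z * u * z⁻¹)) ^ k = s at hk si sP
  have e1 : z * u * z⁻¹ = u * s * s := by rw [mul_assoc u, hk, mul_inv_cancel_left]
  have e2 : u * s * z = z * (u * s) := by
    rw [eq_comm, ← mul_inv_eq_iff_eq_mul, ← conj_mul, si, e1, mul_inv_cancel_right]
  obtain ⟨x, hx, e⟩ := (h.cent f hab hz (P.mul_mem hu sP)).1 e2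
  have e3 := inv_mul_eq_one.1 (hs b hab _ (P.mul_mem (P.inv_mem (f.QP hx)) (P.mul_mem hu sP)) e)
  have e4 : s * x * s⁻¹ = x := by rw [f.cen s (f.le sP) x hx, mul_inv_cancel_right]
  have e5 : u * s * s * u = x * (s * x * s⁻¹) := by rw [e3]; group
  rw [e1, e5, e4]
  exact mul_mem hx hx

/-- the elements acting trivially on `P / Q a` -/
def lp5_M (h : Fam p Q) {a : Ω} {U P : Subgroup G} (f : Fit Q a U P) : Subgroup G where
  carrier := {m | m ∈ U ∧ ∀ u ∈ P, m * u * m⁻¹ * u⁻¹ ∈ Q a}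
  one_mem' := ⟨one_mem _, fun u _ => by simp⟩
  mul_mem' := fun {m n} hm hn => ⟨mul_mem hm.1 hn.1, fun u hu => by
    have := mul_mem (lp5_cj h (f.fix m hm.1) (hn.2 u hu)) (hm.2 u hu)
    convert this using 1; group⟩
  inv_mem' := fun {m} hm => ⟨inv_mem hm.1, fun u hu => by
    have := lp5_cj h (f.fix _ (inv_mem hm.1)) (inv_mem (hm.2 u hu))
    convert this using 1; group⟩

theorem lp5_le (h : Fam p Q) {a : Ω} {U P : Subgroup G} (f : Fit Q a U P) : lp5_M h f ≤ P := by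
  refine f.mx _ (fun _ k => k.1) (fun g hg m hm => ⟨mul_mem (mul_mem hg hm.1) (inv_mem hg), fun u hu => ?_⟩) ?_
  · have := lp5_cj h (f.fix g hg) (hm.2 _ (f.nP _ (f.fix _ (inv_mem hg)) u hu))
    convert this using 1; group
  have s1 : ∀ x : lp5_M h f, (x : G) ∈ Q a → x ∈ Subgroup.upperCentralSeries (lp5_M h f) 1 := fun x hx =>
    Subgroup.mem_upperCentralSeries_succ_iff.2 fun y => by
      have e : (x : G) * y * (x : G)⁻¹ * (y : G)⁻¹ = 1 := by rw [← f.cen y y.2.1 x hx]; group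
      exact mem_bot.2 (Subtype.ext e)
  have s2 : ∀ x : lp5_M h f, (x : G) ∈ P → x ∈ Subgroup.upperCentralSeries (lp5_M h f) 2 := fun x hx =>
    Subgroup.mem_upperCentralSeries_succ_iff.2 fun y => s1 _ (by
      show (x : G) * y * (x : G)⁻¹ * (y : G)⁻¹ ∈ Q a
      have := inv_mem (y.2.2 x hx)
      convert this using 1; group)
  refine ⟨⟨3, eq_top_iff.2 fun x _ => Subgroup.mem_upperCentralSeries_succ_iff.2 fun y => s2 _ ?_⟩⟩
  obtain ⟨m, hm⟩ := x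
  obtain ⟨n, hn⟩ := y
  show m * n * m⁻¹ * n⁻¹ ∈ P
  have key : ∀ m ∈ lp5_M h f, ∀ n ∈ lp5_M h f, ∀ u ∈ P,
      m * n * u * (m * n)⁻¹ = n * u * n⁻¹ * u⁻¹ * (m * u * m⁻¹ * u⁻¹) * u := fun m hm n hn u hu => by
    calc _ = m * (n * u * n⁻¹ * u⁻¹) * (u * m⁻¹) := by group
      _ = _ := by rw [f.cen m hm.1 _ (hn.2 u hu)]; group
  refine f.sc _ (mul_mem (mul_mem (mul_mem hm.1 hn.1) (inv_mem hm.1)) (inv_mem hn.1)) fun v hv => ?_
  have vP := f.nP _ (f.fix _ (inv_mem (mul_mem hn.1 hm.1))) v hv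
  have e := key m hm n hn _ vP
  rw [h.comm (hn.2 _ vP) (hm.2 _ vP), ← key n hn m hm _ vP] at e
  calc _ = m * n * ((n * m)⁻¹ * v * (n * m)⁻¹⁻¹) * (m * n)⁻¹ * (m * n * m⁻¹ * n⁻¹) := by group
    _ = _ := by rw [e]; group

/-- the semiregular case -/
theorem Pl.semi (h : Pl p Q) {a : Ω} {U P : Subgroup G} (f : Fit Q a U P)
    (hs : ∀ b : Ω, a ≠ b → ∀ u ∈ P, u • b = b → u = 1) :
    ∀ x y : Ω, x ≠ a → y ≠ a → ∃ u ∈ P, u • x = y := by
  intro x y xa ya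
  obtain ⟨z, hz⟩ := h.exz a x xa.symm
  obtain ⟨z', hz'⟩ := h.exz a y ya.symm
  have hU := f.zz x y xa.symm ya.symm z z' hz hz'
  have za : z • a = a := (hz.fix a).2 (left_mem_Li Q a x)
  have hM : z * z' ∈ lp5_M h.toFam f := ⟨hU, fun u hu => by
    have := mul_mem (lp5_cj h.toFam za (lp5_inv h f hs ya.symm hz' hu))
      (lp5_inv h f hs xa.symm hz (inv_mem hu))
    convert this using 1; group⟩
  obtain ⟨m, hm, -, e⟩ := h.tr_of_zz xa.symm ya.symm hz hz' (lp5_odd f.odd hU) f.QP (lp5_le _ f hM)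
  exact ⟨m, hm, e⟩

end H97.CYN
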