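import Cfsg.Agent.Lib.CYN.Bas2

/-! Definitions for the case of lines of type `SL₂(p)` (blueprint/CYN/README_Lp.md). -/

set_option autoImplicit false
set_option linter.unusedSectionVars false

namespace H97.CYN

open MulAction Subgroup Matrix H51.HK

variable {G Ω : Type} [Group G] [MulAction G Ω]

/-- `z` is the involution of the line through `a` and `b` -/
structure Zs (Q : Ω → Subgroup G) (a b : Ω) (z : G) : Prop where
  mem : z ∈ Kg Q a b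
  sq : z * z = 1
  fix : ∀ x, z • x = x ↔ x ∈ Li Q a b

/-- lines of type `SL₂(p)` whose central involution fixes only the line -/
structure Pl (p : ℕ) (Q : Ω → Subgroup G) : Prop extends St p Q where
  nc : ¬ Col Q
  len : ∀ a b : Ω, a ≠ b → (Li Q a b).ncard = p + 1
  exz : ∀ a b : Ω, a ≠ b → ∃ z, Zs Q a b z
  uq : ∀ a b : Ω, a ≠ b → ∀ z, Zs Q a b z → ∀ k ∈ Kg Q a b, k ∈ Wg Q a b → k = 1 ∨ k = z
  rt : ∀ a b : Ω, a ≠ b → ∀ z, Zs Q a b z → ∃ τ ∈ Kg Q a b, τ * τ = z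
  hh : ∀ a b c d : Ω, a ≠ b → c ≠ d → ∀ z z', Zs Q a b z → Zs Q c d z' → z' • a = b →
    ∃ τ ∈ Kg Q a b, (τ * z') • a = a ∧ (τ * z') • b = b ∧ (τ * z') ^ (p - 1) = z

/-- `U = O(G_a) ∩ C(Q a)` and `P = F(U)` -/
structure Fit (Q : Ω → Subgroup G) (a : Ω) (U P : Subgroup G) : Prop where
  fix : ∀ u ∈ U, u • a = a
  cen : ∀ u ∈ U, ∀ x ∈ Q a, u * x = x * u
  odd : Odd (Nat.card U)
  nU : ∀ g : G, g • a = a → ∀ u ∈ U, g * u * g⁻¹ ∈ U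
  zz : ∀ b c : Ω, a ≠ b → a ≠ c → ∀ z z', Zs Q a b z → Zs Q a c z' → z * z' ∈ U
  le : P ≤ U
  QP : Q a ≤ P
  nP : ∀ g : G, g • a = a → ∀ u ∈ P, g * u * g⁻¹ ∈ P
  nil : Group.IsNilpotent P
  mx : ∀ M : Subgroup G, M ≤ U → (∀ u ∈ U, ∀ m ∈ M, u * m * u⁻¹ ∈ M) → Group.IsNilpotent M → M ≤ P
  sc : ∀ u ∈ U, (∀ v ∈ P, u * v = v * u) → u ∈ P

/-- `Γ` is not contained in a line -/
def Nc (Q : Ω → Subgroup G) (Γ : Set Ω) : Prop :=
  ∃ a ∈ Γ, ∃ b ∈ Γ, ∃ c ∈ Γ, a ≠ b ∧ c ∉ Li Q a b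

/-- the induction hypothesis -/
def IHp (p : ℕ) (Q : Ω → Subgroup G) : Prop :=
  ∀ Γ : Set Ω, Cl Q Γ → Nc Q Γ → Γ ≠ Set.univ → Γ.ncard = p ^ 3 + 1

/-- the centre of `N_P(P_b)` -/
def Z1 (P : Subgroup G) (b : Ω) : Subgroup G :=
  P ⊓ normalizer ((P ⊓ stabilizer G b : Subgroup G) : Set G) ⊓
    centralizer ((P ⊓ normalizer ((P ⊓ stabilizer G b : Subgroup G) : Set G) : Subgroup G) : Set G)

end H97.CYN
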