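import Cfsg.Agent.Lib.CYN.Bas2
import Cfsg.Agent.Lib.GL.Basic

set_option autoImplicit false
set_option linter.unusedSectionVars false

namespace H97.CYN

open MulAction Subgroup Matrix H51.HK
open scoped MatrixGroups

variable {G Ω : Type} [Group G] [MulAction G Ω] [Finite G] [Finite Ω] {p : ℕ} {Q : Ω → Subgroup G}

theorem x_r1_tr_sq {F : Type} [Field F] [CharP F 2] (B : SL(2, F)) :
    (B * B).1 0 0 + (B * B).1 1 1 = (B.1 0 0 + B.1 1 1) ^ 2 := by
  have t : (2 : F) = 0 := CharP.cast_eq_zero F 2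
  simp only [Matrix.SpecialLinearGroup.coe_mul, Matrix.mul_apply, Fin.sum_univ_two]
  linear_combination (B.1 0 1 * B.1 1 0 - B.1 0 0 * B.1 1 1) * t

/-- no elements of order four in `PSL₂` in characteristic two -/
theorem psl_no4 {F : Type} [Field F] [CharP F 2] {x : PSL(2, F)} (h : x ^ 4 = 1) : x ^ 2 = 1 := by
  have t : (2 : F) = 0 := CharP.cast_eq_zero F 2
  obtain ⟨A, rfl⟩ := QuotientGroup.mk_surjective x
  rw [← QuotientGroup.mk_pow, QuotientGroup.eq_one_iff, Matrix.SpecialLinearGroup.mem_center_iff] at h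
  obtain ⟨r, -, hr⟩ := h
  have e : A ^ 4 = (A * A) * (A * A) := by rw [← sq, ← sq, ← pow_mul]
  have h1 := x_r1_tr_sq (A * A)
  rw [x_r1_tr_sq A, ← e, ← hr] at h1
  have h2 : ((A.1 0 0 + A.1 1 1) ^ 2) ^ 2 = 0 := by
    rw [← h1]
    simp only [scalar_apply, diagonal_apply_eq]
    linear_combination r * t
  have h3 : A.1 0 0 + A.1 1 1 = 0 := pow_eq_zero_iff two_ne_zero |>.1 (pow_eq_zero_iff two_ne_zero |>.1 h2)
  have d : A.1 0 0 * A.1 1 1 - A.1 0 1 * A.1 1 0 = 1 := by rw [← det_fin_two]; exact A.2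
  have : A ^ 2 = 1 := by
    rw [sq]
    ext i j
    fin_cases i <;> fin_cases j <;>
      simp only [Matrix.SpecialLinearGroup.coe_mul, Matrix.mul_apply, Fin.sum_univ_two, Matrix.SpecialLinearGroup.coe_one,
        Fin.zero_eta, Fin.mk_one, Fin.isValue, one_apply_eq, ne_eq, zero_ne_one, one_ne_zero, not_false_eq_true,
        one_apply_ne]
    · linear_combination A.1 0 0 * h3 - d - t
    · linear_combination A.1 0 1 * h3
    · linear_combination A.1 1 0 * h3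
    · linear_combination A.1 1 1 * h3 - d - t
  rw [← QuotientGroup.mk_pow, this, QuotientGroup.mk_one]

theorem x_r1_inv_cj {t : G} (ht : Inv t) (g : G) : Inv (g * t * g⁻¹) := by
  refine ⟨?_, fun e => ht.2 ?_⟩
  · calc _ = g * (t * t) * g⁻¹ := by group
      _ = 1 := by rw [ht.1, mul_one, mul_inv_cancel]
  · calc t = g⁻¹ * (g * t * g⁻¹) * g := by group
      _ = 1 := by rw [e, mul_one, inv_mul_cancel]

theorem x_r1_cj_smul {t g : G} {c : Ω} (e : t • c = c) : (g * t * g⁻¹) • g • c = g • c := by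
  rw [mul_smul, mul_smul, inv_smul_smul, e]

theorem x_r1_back {t : G} (t2 : t * t = 1) {c d : Ω} (e : t • c = d) : t • d = c := by
  rw [← e, ← mul_smul, t2, one_smul]

variable (h : St 3 Q) (hR : ∀ a b : Ω, a ≠ b → R8 Q a b) {a b : Ω} {g s t : G}
include h hR

theorem x_r1_swapN (ga : g • a = b) (gb : g • b = a) : g ∈ Ng Q a b :=
  h.toFam.mem_N (by rw [ga]; exact right_mem_Li Q a b) (by rw [gb]; exact left_mem_Li Q a b)

theorem x_r1_fixN (ga : g • a = a) (gb : g • b = b) : g ∈ Ng Q a b :=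
  h.toFam.mem_N (by rw [ga]; exact left_mem_Li Q a b) (by rw [gb]; exact right_mem_Li Q a b)

theorem x_r1_fix (t2 : t * t = 1) (hc : a ≠ t • a) :
    ∃ c ∈ Li Q a (t • a), ∃ d ∈ Li Q a (t • a), c ≠ d ∧ t • c = c ∧ t • d = d :=
  (hR _ _ hc).inv t (x_r1_swapN h hR rfl (x_r1_back t2 rfl)) (fun x _ => by rw [t2, one_smul])

theorem r_tp (ht : Tp Q t) (t2 : t * t = 1) : t = 1 := by
  refine h.faith t fun a => ?_
  by_contra e
  have hc : a ≠ t • a := fun k => e k.symm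
  obtain ⟨c, hc1, d, hd1, cd, tc, td⟩ := x_r1_fix h hR t2 hc
  have w := h.toFam.W_of_tp ht tc td
  rw [h.W_eq hc hc1 hd1 cd, h.toFam.W_iff hc] at w
  exact e (w a (left_mem_Li Q _ _))

theorem r_odd (hg : ∀ x ∈ Q a, g * x = x * g) : Odd (orderOf g) := by
  by_contra e
  obtain ⟨k, hk⟩ := Nat.not_odd_iff_even.1 e
  have p0 := orderOf_pos g
  have : g ^ k = 1 := r_tp h hR (h.tp (a := a) fun x hx => (Commute.pow_left (hg x hx) k).eq)
    (by rw [← pow_add, ← hk, pow_orderOf_eq_one])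
  have := Nat.le_of_dvd (by omega) (orderOf_dvd_of_pow_eq_one this)
  omega

theorem r_inK (hab : a ≠ b) (hg : g ∈ Ng Q a b) {i : ℕ} (h2 : g ^ 2 ^ i = 1) : g ∈ Kg Q a b := by
  obtain ⟨k, hk, w⟩ := (hR a b hab).idx g hg
  rw [← h.toFam.W_iff hab] at w
  have o := r_odd h hR (h.toFam.mem_W.1 w).1
  have c : Commute k (k⁻¹ * g ^ 3) := mem_Wg.1 w k hk
  have e : g ^ (3 * orderOf (k⁻¹ * g ^ 3)) = k ^ orderOf (k⁻¹ * g ^ 3) := by
    have := c.mul_pow (orderOf (k⁻¹ * g ^ 3))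
    rw [pow_orderOf_eq_one, mul_one, mul_inv_cancel_left] at this
    rw [pow_mul, this]
  have cp : (3 * orderOf (k⁻¹ * g ^ 3)).Coprime (orderOf g) :=
    Nat.Coprime.coprime_dvd_right (orderOf_dvd_of_pow_eq_one h2)
      (Nat.Coprime.pow_right i (Nat.coprime_two_right.2 (Odd.mul (by decide) o)))
  obtain ⟨m, hm⟩ := exists_pow_eq_self_of_coprime cp
  rw [← hm, e]
  exact pow_mem (pow_mem hk _) _

theorem r_fix2 (t2 : t * t = 1) : ∃ c d : Ω, c ≠ d ∧ t • c = c ∧ t • d = d := by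
  by_cases e : ∀ a : Ω, a = t • a
  · obtain ⟨c, d, cd⟩ := h.nt
    exact ⟨c, d, cd, (e c).symm, (e d).symm⟩
  · obtain ⟨a, ha⟩ := not_forall.1 e
    obtain ⟨c, -, d, -, k⟩ := x_r1_fix h hR t2 ha
    exact ⟨c, d, k⟩

theorem r_inv (ht : Inv t) (ta : t • a = a) : ∀ x ∈ Q a, t * x * t⁻¹ = x⁻¹ := by
  rcases h.toFam.cent_or_inv ta (fun x _ => by rw [ht.1, one_mul, mul_one]) with k | k
  · exact absurd (r_tp h hR (h.tp k) ht.1) ht.2
  · exact k

theorem x_r1_cent (hs : ∀ x ∈ Q a, s * x * s⁻¹ = x⁻¹) (ht : ∀ x ∈ Q a, t * x * t⁻¹ = x⁻¹) :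
    ∀ x ∈ Q a, s * t * x = x * (s * t) := fun x hx => by
  calc s * t * x = s * (t * x * t⁻¹) * s⁻¹ * (s * t) := by group
    _ = x * (s * t) := by rw [ht x hx, hs _ (inv_mem hx), inv_inv]

theorem r_uniq (hab : a ≠ b) (hs : Inv s) (ht : Inv t) (sa : s • a = a) (sb : s • b = b)
    (ta : t • a = a) (tb : t • b = b) : s = t := by
  have w : s * t ∈ Wg Q a b := h.toFam.mem_W.2
    ⟨x_r1_cent h hR (r_inv h hR hs sa) (r_inv h hR ht ta), x_r1_cent h hR (r_inv h hR hs sb) (r_inv h hR ht tb)⟩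
  have k : s ∈ Kg Q a b := r_inK h hR hab (x_r1_fixN h hR sa sb) (i := 1) (by rw [pow_one, sq, hs.1])
  have c := mem_Wg.1 w s k
  have e : s * t = 1 := r_tp h hR (h.tp_of_W w) (by
    calc s * t * (s * t) = (s * t * s) * t := by group
      _ = 1 := by rw [← c, ← mul_assoc s s, hs.1, one_mul, ht.1])
  calc s = s * (t * t) := by rw [ht.1, mul_one]
    _ = t := by rw [← mul_assoc, e, one_mul]

theorem x_r1_dvd (hab : a ≠ b) : 504 ∣ Nat.card (Kg Q a b) := by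
  obtain ⟨F, _, _, ψ, c, sj, -⟩ := (hR a b hab).iso
  have e := H10.card_PSL_two (F := F)
  rw [Nat.card_eq_fintype_card (α := F), c] at e
  have e' : Nat.card (PSL(2, F)) = 504 := by
    norm_num at e
    simpa using e
  rw [← e']
  exact Subgroup.card_dvd_of_surjective ψ sj

theorem x_r1_exinv : ∃ t : G, Inv t := by
  obtain ⟨c, d, cd⟩ := h.nt
  have : Fact (Nat.Prime 2) := ⟨Nat.prime_two⟩
  have e : 2 ∣ Nat.card G := (Dvd.dvd.trans (by norm_num) (x_r1_dvd h hR cd)).trans (card_subgroup_dvd_card _)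
  obtain ⟨t, ht⟩ := exists_prime_orderOf_dvd_card' 2 e
  refine ⟨t, by rw [← sq, ← ht, pow_orderOf_eq_one], fun k => ?_⟩
  rw [k, orderOf_one] at ht
  omega

theorem r_ex (hab : a ≠ b) : ∃ t : G, Inv t ∧ t • a = a ∧ t • b = b := by
  obtain ⟨t, ht⟩ := x_r1_exinv h hR
  obtain ⟨c, d, cd, tc, td⟩ := r_fix2 h hR ht.1
  obtain ⟨g, rfl, rfl⟩ := h.two c d a b cd hab
  exact ⟨_, x_r1_inv_cj ht g, x_r1_cj_smul tc, x_r1_cj_smul td⟩

theorem r_conj (hs : Inv s) (ht : Inv t) : IsConj s t := by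
  obtain ⟨c, d, cd, sc, sd⟩ := r_fix2 h hR hs.1
  obtain ⟨c', d', cd', tc, td⟩ := r_fix2 h hR ht.1
  obtain ⟨g, rfl, rfl⟩ := h.two c d c' d' cd cd'
  exact isConj_iff.2 ⟨g, r_uniq h hR cd' (x_r1_inv_cj hs g) ht (x_r1_cj_smul sc) (x_r1_cj_smul sd) tc td⟩

theorem x_r1_loc (hab : a ≠ b) (hg : g ∈ Ng Q a b) (h4 : g ^ 4 = 1) : g ^ 2 = 1 := by
  have k : g ∈ Kg Q a b := r_inK h hR hab hg (i := 2) h4
  obtain ⟨F, _, _, ψ, c, -, kr⟩ := (hR a b hab).iso
  have : Fact (Nat.Prime 2) := ⟨Nat.prime_two⟩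
  have : CharP F 2 := charP_of_card_eq_prime_pow (p := 2) (f := 3) (by rw [c]; norm_num)
  have e : ψ ⟨g, k⟩ ^ 4 = 1 := by
    rw [← map_pow, show (⟨g, k⟩ : Kg Q a b) ^ 4 = 1 from Subtype.ext h4, map_one]
  have e2 := psl_no4 e
  rw [← map_pow, kr, ← h.toFam.W_iff hab] at e2
  exact r_tp h hR (h.tp_of_W e2) (by
    change g ^ 2 * g ^ 2 = 1
    rw [← pow_add, h4])

theorem r_no4 (h4 : g ^ 4 = 1) : g ^ 2 = 1 := by
  obtain ⟨c, d, cd, tc, td⟩ := r_fix2 h hR (t := g * g) (by rw [← sq, ← sq, ← pow_mul, h4])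
  by_cases e : c = g • c
  · by_cases e' : d = g • d
    · exact x_r1_loc h hR cd (x_r1_fixN h hR e.symm e'.symm) h4
    · exact x_r1_loc h hR e' (x_r1_swapN h hR rfl (by rw [← mul_smul, td])) h4
  · exact x_r1_loc h hR e (x_r1_swapN h hR rfl (by rw [← mul_smul, tc])) h4

theorem x_r1_type (ga : g • a = a) : (∀ x ∈ Q a, g * x = x * g) ∨ ∀ x ∈ Q a, g * x * g⁻¹ = x⁻¹ := by
  obtain ⟨n, cp, k⟩ := h.toFam.type ga
  have n0 : n % 3 ≠ 0 := fun e => by
    have := Nat.eq_one_of_dvd_coprimes cp (Nat.dvd_of_mod_eq_zero e) dvd_rfl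
    omega
  have k' : ∀ x ∈ Q a, g * x * g⁻¹ = x ^ (n % 3) := fun x hx => by
    rw [k x hx, pow_eq_pow_mod n (h.toFam.pow_eq hx)]
  rcases (by omega : n % 3 = 1 ∨ n % 3 = 2) with e | e
  · refine Or.inl fun x hx => ?_
    have := k' x hx
    rw [e, pow_one] at this
    exact mul_inv_eq_iff_eq_mul.1 this
  · refine Or.inr fun x hx => ?_
    rw [k' x hx, e]
    exact eq_inv_of_mul_eq_one_left (by rw [← pow_succ]; exact h.toFam.pow_eq hx)

theorem r_swap (hab : a ≠ b) : {s : G | Inv s ∧ s • a = b}.ncard = 2 := by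
  obtain ⟨t, ht, ta, tb⟩ := r_ex h hR hab
  obtain ⟨s, hs, sa⟩ : ∃ s : G, Inv s ∧ s • a = b := by
    obtain ⟨c, hc⟩ := not_forall.1 fun k => ht.2 (h.faith t k)
    obtain ⟨g, rfl, e⟩ := h.two c (t • c) a b (fun k => hc k.symm) hab
    exact ⟨_, x_r1_inv_cj ht g, by rw [mul_smul, mul_smul, inv_smul_smul, e]⟩
  have sb : s • b = a := x_r1_back hs.1 sa
  have st : s * t = t * s := by
    have := r_uniq h hR hab (x_r1_inv_cj ht s) ht (by rw [← sb]; exact x_r1_cj_smul tb)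
      (by rw [← sa]; exact x_r1_cj_smul ta) ta tb
    exact mul_inv_eq_iff_eq_mul.1 this
  have sK : s ∈ Kg Q a b := r_inK h hR hab (x_r1_swapN h hR sa sb) (i := 1) (by rw [pow_one, sq, hs.1])
  have sta : (s * t) • a = b := by rw [mul_smul, ta, sa]
  rw [Set.ncard_eq_two]
  refine ⟨s, s * t, fun e => ht.2 (mul_eq_left.1 e.symm), Set.ext fun u => ⟨fun ⟨hu, ua⟩ => ?_, ?_⟩⟩
  · have ub : u • b = a := x_r1_back hu.1 ua
    have va : (s * u) • a = a := by rw [mul_smul, ua, sb]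
    have vb : (s * u) • b = b := by rw [mul_smul, ub, sa]
    have c : s * (s * u) = s * u * s := by
      rcases x_r1_type h hR va with k | k
      · exact mem_Wg.1 (h.toFam.W_of_tp (h.tp k) va vb) s sK
      · have := mem_Wg.1 (h.toFam.W_of_tp (h.tp (x_r1_cent h hR (r_inv h hR ht ta) k))
          (by rw [mul_smul, va, ta]) (by rw [mul_smul, vb, tb])) s sK
        rw [← mul_assoc, st, mul_assoc, mul_assoc t] at this
        exact mul_left_cancel this
    have v2 : s * u * (s * u) = 1 := by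
      calc s * u * (s * u) = (s * u * s) * u := by group
        _ = 1 := by rw [← c, ← mul_assoc s s, hs.1, one_mul, hu.1]
    have eu : u = s * (s * u) := by rw [← mul_assoc, hs.1, one_mul]
    by_cases v1 : s * u = 1
    · left; rw [eu, v1, mul_one]
    · right; rw [eu, r_uniq h hR hab ⟨v2, v1⟩ ht va vb ta tb]; rfl
  · rintro (rfl | rfl)
    · exact ⟨hs, sa⟩
    · refine ⟨⟨?_, fun e => hab ?_⟩, sta⟩
      · calc s * t * (s * t) = s * (t * s) * t := by group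
          _ = 1 := by rw [← st, ← mul_assoc s s, hs.1, one_mul, ht.1]
      · rw [← sta, e, one_smul]

theorem r_dvd (hab : a ≠ b) : 504 ∣ Nat.card (Kg Q a b) := x_r1_dvd h hR hab

end H97.CYN
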