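import Cfsg.Agent.Lib.CYN.Defs

set_option autoImplicit false
set_option linter.unusedSectionVars false

namespace H97.CYN

open MulAction Subgroup Matrix H51.HK
open scoped MatrixGroups

variable {G Ω : Type} [Group G] [MulAction G Ω] [Finite G] [Finite Ω] {p : ℕ} {Q : Ω → Subgroup G}

theorem r2_arith {n f N : ℕ} (hn : 2 ≤ n) (hf : f ≤ n) (e1 : N * (f * f - f) = (n * n - n) * 1)
    (e2 : N * (n - f) = (n * n - n) * 2) : n + f = 2 * f ^ 2 ∧ N + 1 = 4 * f ^ 2 := by
  have a1 : f ≤ f * f := Nat.le_mul_self f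
  have a2 : n ≤ n * n := Nat.le_mul_self n
  zify [a1, a2, hf] at e1 e2 ⊢
  have hn' : (2 : ℤ) ≤ n := by exact_mod_cast hn
  have p0 : (0 : ℤ) < n * n - n := by nlinarith
  have N0 : (N : ℤ) ≠ 0 := fun e => by rw [e] at e1; omega
  have f0 : (f * f - f : ℤ) ≠ 0 := fun e => by rw [e] at e1; omega
  have k : (n : ℤ) + f = 2 * f ^ 2 := by
    have : (N : ℤ) * (n + f - 2 * f ^ 2) = 0 := by linear_combination e2 - 2 * e1
    have := (mul_eq_zero.1 this).resolve_left N0
    linear_combination this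
  refine ⟨k, ?_⟩
  have hn2 : (n : ℤ) = 2 * f ^ 2 - f := by linear_combination k
  have : (f * f - f : ℤ) * (N + 1 - 4 * f ^ 2) = 0 := by
    rw [hn2] at e1; linear_combination e1
  have := (mul_eq_zero.1 this).resolve_left f0
  linear_combination this

/-- counting involutions -/
theorem r_count [Nontrivial Ω] {f : ℕ} (hf : ∀ t : G, Inv t → (Fx Ω ({t} : Set G)).ncard = f)
    (h1 : ∀ a b : Ω, a ≠ b → ∃! t : G, Inv t ∧ t • a = a ∧ t • b = b)
    (h2 : ∀ a b : Ω, a ≠ b → {s : G | Inv s ∧ s • a = b}.ncard = 2) :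
    Nat.card Ω + f = 2 * f ^ 2 ∧ {t : G | Inv t}.ncard + 1 = 4 * f ^ 2 := by
  classical
  haveI := Fintype.ofFinite G
  haveI := Fintype.ofFinite Ω
  set T : Finset G := Finset.univ.filter fun t => Inv t with hT
  have mT : ∀ t, t ∈ T ↔ Inv t := fun t => by simp [hT]
  have eT : {t : G | Inv t}.ncard = T.card := by
    rw [← Set.ncard_coe_finset]; congr 1; ext t; simp [hT]
  have fx : ∀ t ∈ T, (Finset.univ.filter fun a : Ω => t • a = a).card = f := fun t ht => by
    rw [← hf t ((mT t).1 ht), ← Set.ncard_coe_finset]; congr 1; ext a; simp [Fx]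
  have e1 := Finset.card_mul_eq_card_mul (s := T) (t := (Finset.univ : Finset Ω).offDiag)
    (fun (t : G) (x : Ω × Ω) => t • x.1 = x.1 ∧ t • x.2 = x.2) (m := f * f - f) (n := 1)
    (fun t ht => by
      rw [← fx t ht, ← Finset.offDiag_card]; congr 1; ext x
      simp [Finset.mem_bipartiteAbove, Finset.mem_offDiag]; tauto)
    (fun x hx => by
      obtain ⟨t, ht, hu⟩ := h1 x.1 x.2 (Finset.mem_offDiag.1 hx).2.2
      refine Finset.card_eq_one.2 ⟨t, ?_⟩
      ext s
      simp only [Finset.mem_bipartiteBelow, mT, Finset.mem_singleton]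
      exact ⟨fun k => hu s k, fun k => k ▸ ht⟩)
  have e2 := Finset.card_mul_eq_card_mul (s := T) (t := (Finset.univ : Finset Ω).offDiag)
    (fun (t : G) (x : Ω × Ω) => t • x.1 = x.2) (m := Fintype.card Ω - f) (n := 2)
    (fun t ht => by
      have k := Finset.card_filter_add_card_filter_not (s := (Finset.univ : Finset Ω)) fun a => t • a = a
      rw [fx t ht, Finset.card_univ] at k
      rw [← k, Nat.add_sub_cancel_left]
      symm
      refine Finset.card_bij (fun a _ => (a, t • a)) (fun a ha => ?_) (fun a _ b _ e => congrArg Prod.fst e)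
        (fun x hx => ?_)
      · simp only [Finset.mem_filter, Finset.mem_univ, true_and] at ha
        simp [Finset.mem_bipartiteAbove, Finset.mem_offDiag, Ne.symm ha]
      · simp only [Finset.mem_bipartiteAbove, Finset.mem_offDiag, Finset.mem_univ, true_and] at hx
        refine ⟨x.1, ?_, by rw [hx.2]⟩
        simp only [Finset.mem_filter, Finset.mem_univ, true_and]
        rw [hx.2]; exact Ne.symm hx.1)
    (fun x hx => by
      rw [← h2 x.1 x.2 (Finset.mem_offDiag.1 hx).2.2, ← Set.ncard_coe_finset]; congr 1; ext s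
      simp [Finset.mem_bipartiteBelow, mT])
  rw [Finset.offDiag_card, Finset.card_univ] at e1 e2
  rw [eT, Nat.card_eq_fintype_card]
  obtain ⟨a, b, hab⟩ := exists_pair_ne Ω
  obtain ⟨t, ht, -⟩ := h1 a b hab
  refine r2_arith Fintype.one_lt_card ?_ e1 e2
  rw [← fx t ((mT t).2 ht.1)]
  exact Finset.card_le_univ _

theorem r2_ent {F : Type} [Field F] {g h : SL(2, F)} (e : g = h) (i j : Fin 2) : g i j = h i j := by rw [e]

theorem r2_mul {F : Type} [Field F] (g h : SL(2, F)) (i j : Fin 2) :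
    (g * h) i j = g i 0 * h 0 j + g i 1 * h 1 j := by
  simp [Matrix.mul_apply, Fin.sum_univ_two]

theorem r2_inv {F : Type} [Field F] [CharP F 2] {t : SL(2, F)} (ht : Inv t) :
    t 1 1 = t 0 0 ∧ t 0 0 * t 0 0 + t 0 1 * t 1 0 = 1 ∧ (t 0 1 ≠ 0 ∨ t 1 0 ≠ 0) := by
  have two := CharTwo.two_eq_zero (R := F)
  have d : t 0 0 * t 1 1 - t 0 1 * t 1 0 = 1 := by rw [← det_fin_two]; exact t.2
  have e0 := r2_ent ht.1 0 0
  have e1 := r2_ent ht.1 0 1
  have e2 := r2_ent ht.1 1 0
  have e3 := r2_ent ht.1 1 1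
  simp [Matrix.mul_apply, Fin.sum_univ_two] at e0 e1 e2 e3
  have k : t 1 1 = t 0 0 := by
    linear_combination (t 0 0) * d * 0 + t 0 0 * d - t 1 1 * e0 + t 1 0 * e1 + (0 : F) * two
  refine ⟨k, e0, ?_⟩
  by_contra hc
  push Not at hc
  have a1 : t 0 0 = 1 := by
    have : (t 0 0 + 1) * (t 0 0 + 1) = 0 := by
      rw [hc.1] at e0; linear_combination e0 + (t 0 0 + 1) * two
    linear_combination mul_self_eq_zero.1 this - two
  refine ht.2 ?_
  ext i j
  fin_cases i <;> fin_cases j <;> simp [a1, k, hc.1, hc.2]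

/-- centralisers of involutions in `SL₂` in characteristic two -/
theorem sl_cit {F : Type} [Field F] [CharP F 2] {t g : SL(2, F)} (ht : Inv t) (e : g * t = t * g) :
    g * g = 1 := by
  have two := CharTwo.two_eq_zero (R := F)
  obtain ⟨k, -, k3⟩ := r2_inv ht
  have d : g 0 0 * g 1 1 - g 0 1 * g 1 0 = 1 := by rw [← det_fin_two]; exact g.2
  have e1 := r2_ent e 0 1
  have e2 := r2_ent e 1 0
  simp [Matrix.mul_apply, Fin.sum_univ_two, k] at e1 e2
  have x : g 1 1 = g 0 0 := by
    rcases k3 with k3 | k3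
    · exact mul_left_cancel₀ k3 (by linear_combination -e1)
    · exact mul_left_cancel₀ k3 (by linear_combination e2)
  rw [x] at d
  ext i j
  fin_cases i <;> fin_cases j <;> simp [Matrix.mul_apply, Fin.sum_univ_two, x]
  · linear_combination d + g 0 1 * g 1 0 * two
  · linear_combination g 0 0 * g 0 1 * two
  · linear_combination g 0 0 * g 1 0 * two
  · linear_combination d + g 0 1 * g 1 0 * two

/-- the conclusion of `psl8_cyc` -/
def R2Cy {M : Type} [Group M] (t : M) : Prop :=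
  ∃ k : M, k ^ 7 = 1 ∧ k ≠ 1 ∧ k * t * k⁻¹ * t = t * (k * t * k⁻¹) ∧
    ∀ s : M, Inv s → s * t = t * s → ∃ i : ℕ, s = k ^ i * t * (k ^ i)⁻¹

theorem R2Cy.map {M M' : Type} [Group M] [Group M'] (e : M ≃* M') {t : M} (h : R2Cy t) : R2Cy (e t) := by
  obtain ⟨k, k1, k2, k3, k4⟩ := h
  refine ⟨e k, by rw [← map_pow, k1, map_one], by simpa using k2, by simpa using congrArg e k3,
    fun s hs hc => ?_⟩
  obtain ⟨s, rfl⟩ := e.surjective s
  obtain ⟨i, hi⟩ := k4 s ⟨e.injective (by rw [map_mul, hs.1, map_one]), fun k => hs.2 (by rw [k, map_one])⟩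
    (e.injective (by rw [map_mul, map_mul, hc]))
  exact ⟨i, by simpa using congrArg e hi⟩

theorem r2_dg_up {F : Type} [Field F] (u : Fˣ) (c : F) : dg u * up c = up ((u : F) * u * c) * dg u := by
  ext i j
  rw [r2_mul, r2_mul]
  fin_cases i <;> fin_cases j <;> simp [dg, up]
  field_simp

theorem r2_dg_mul {F : Type} [Field F] (u v : Fˣ) : dg u * dg v = dg (u * v) := by
  ext i j
  rw [r2_mul]
  fin_cases i <;> fin_cases j <;> simp [dg, mul_comm]

theorem r2_dg_one {F : Type} [Field F] : dg (1 : Fˣ) = 1 := by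
  ext i j
  fin_cases i <;> fin_cases j <;> simp [dg]

theorem r2_dg_pow {F : Type} [Field F] (u : Fˣ) (i : ℕ) : dg u ^ i = dg (u ^ i) := by
  induction i with
  | zero => rw [pow_zero, pow_zero, r2_dg_one]
  | succ i ih => rw [pow_succ, ih, r2_dg_mul, pow_succ]

theorem r2_up_comm {F : Type} [Field F] (c d : F) : up c * up d = up d * up c := by
  ext i j
  rw [r2_mul, r2_mul]
  fin_cases i <;> fin_cases j <;> simp [up, add_comm]

theorem r2_up_of {F : Type} [Field F] [CharP F 2] {s : SL(2, F)} (hs : Inv s) (h : s 1 0 = 0) :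
    s 0 1 ≠ 0 ∧ s = up (s 0 1) := by
  have two := CharTwo.two_eq_zero (R := F)
  obtain ⟨k1, k2, k3⟩ := r2_inv hs
  have a1 : s 0 0 = 1 := by
    have : (s 0 0 + 1) * (s 0 0 + 1) = 0 := by
      rw [h] at k2; linear_combination k2 + (s 0 0 + 1) * two
    linear_combination mul_self_eq_zero.1 this - two
  refine ⟨k3.resolve_right fun k => k h, ?_⟩
  ext i j
  fin_cases i <;> fin_cases j <;> simp [up, a1, k1, h]

theorem r2_cy_up {F : Type} [Field F] [Fintype F] [CharP F 2] (hF : Fintype.card F = 8) {c : F} (hc : c ≠ 0) :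
    R2Cy (up c) := by
  classical
  obtain ⟨ω, hω⟩ := IsCyclic.exists_monoid_generator (α := Fˣ)
  have c7 : Fintype.card Fˣ = 7 := by rw [Fintype.card_units, hF]
  have p7 : ∀ u : Fˣ, u ^ 7 = 1 := fun u => by rw [← c7, pow_card_eq_one]
  have cj : ∀ u : Fˣ, dg u * up c * (dg u)⁻¹ = up ((u : F) * u * c) := fun u => by
    rw [r2_dg_up, mul_inv_cancel_right]
  refine ⟨dg ω, by rw [r2_dg_pow, p7, r2_dg_one], fun e => ?_, by rw [cj, r2_up_comm], fun s hs e => ?_⟩
  · have e1 : ω = 1 := by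
      have := r2_ent e 0 0
      simpa [dg] using this
    have : Fintype.card Fˣ ≤ 1 := Fintype.card_le_one_iff.2 fun a b => by
      obtain ⟨i, rfl⟩ := hω a
      obtain ⟨j, rfl⟩ := hω b
      simp [e1]
    omega
  · have e0 := r2_ent e 0 0
    rw [r2_mul, r2_mul] at e0
    simp [up, hc] at e0
    obtain ⟨k1, k2⟩ := r2_up_of hs e0
    obtain ⟨j, hj⟩ := hω (Units.mk0 (s 0 1 / c) (div_ne_zero k1 hc))
    refine ⟨4 * j, ?_⟩
    have : ω ^ (4 * j) * ω ^ (4 * j) = ω ^ j := by
      rw [← pow_add, show 4 * j + 4 * j = 7 * j + j by ring, pow_add, pow_mul, p7, one_pow, one_mul]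
    rw [r2_dg_pow, cj, ← Units.val_mul, this, show ω ^ j = _ from hj, Units.val_mk0, div_mul_cancel₀ _ hc]
    exact k2

theorem r2_cy_sl {F : Type} [Field F] [Fintype F] [CharP F 2] (hF : Fintype.card F = 8) {t : SL(2, F)}
    (ht : Inv t) : R2Cy t := by
  have two := CharTwo.two_eq_zero (R := F)
  by_cases h : t 1 0 = 0
  · obtain ⟨k1, k2⟩ := r2_up_of ht h
    rw [k2]; exact r2_cy_up hF k1
  obtain ⟨k1, k2, -⟩ := r2_inv ht
  let C : SL(2, F) := ⟨!![t 0 0 + 1, (t 1 0)⁻¹; t 1 0, 0], by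
    rw [det_fin_two_of, inv_mul_cancel₀ h]; linear_combination -two⟩
  have e : t * C = C * up (t 1 0)⁻¹ := by
    ext i j
    rw [r2_mul, r2_mul]
    fin_cases i <;> fin_cases j <;> simp [C, up, k1, h]
    · linear_combination k2
    · linear_combination -(t 1 0)⁻¹ * two
    · linear_combination t 0 0 * t 1 0 * two
  have := (r2_cy_up hF (inv_ne_zero h)).map (MulAut.conj C)
  rwa [MulAut.conj_apply, ← e, mul_inv_cancel_right] at this

/-- the Singer cycle on a Sylow 2-subgroup of `PSL₂(8)` -/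
theorem psl8_cyc {F : Type} [Field F] [Fintype F] (hF : Fintype.card F = 8) {t : PSL(2, F)}
    (ht : Inv t) : ∃ k : PSL(2, F), k ^ 7 = 1 ∧ k ≠ 1 ∧ k * t * k⁻¹ * t = t * (k * t * k⁻¹) ∧
      ∀ s : PSL(2, F), Inv s → s * t = t * s → ∃ i : ℕ, s = k ^ i * t * (k ^ i)⁻¹ := by
  haveI : CharP F 2 := charP_of_card_eq_prime_pow (p := 2) (f := 3) hF
  have two := CharTwo.two_eq_zero (R := F)
  have inj : Function.Injective (QuotientGroup.mk' (center SL(2, F))) := by
    rw [injective_iff_map_eq_one]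
    intro g hg
    obtain ⟨r, h1, h2⟩ := Matrix.SpecialLinearGroup.mem_center_iff.1 ((QuotientGroup.eq_one_iff g).1 hg)
    have a1 : r = 1 := by
      have : (r + 1) * (r + 1) = 0 := by
        rw [Fintype.card_fin] at h1; linear_combination h1 + (r + 1) * two
      linear_combination mul_self_eq_zero.1 this - two
    refine Subtype.ext ?_
    rw [← h2, a1, map_one]; rfl
  let e : SL(2, F) ≃* PSL(2, F) :=
    MulEquiv.ofBijective (QuotientGroup.mk' (center SL(2, F))) ⟨inj, QuotientGroup.mk'_surjective _⟩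
  obtain ⟨t, rfl⟩ := e.surjective t
  exact (r2_cy_sl hF ⟨e.injective (by rw [map_mul, ht.1, map_one]), fun k => ht.2 (by rw [k, map_one])⟩).map e

end H97.CYN
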