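import Cfsg.Agent.Lib.CYN.Bas2

/-! Tools for affine lines: H, rep, C1. -/

set_option autoImplicit false
set_option linter.unusedSectionVars false

namespace H97.CYN

open MulAction Subgroup Matrix H51.HK
open scoped MatrixGroups

variable {G Ω : Type} [Group G] [MulAction G Ω] [Finite G] [Finite Ω] {p : ℕ} {Q : Ω → Subgroup G}

variable {a b c d : Ω} {g k w x y : G} {R : Subgroup G}

theorem Fam.t1_one (h : Fam p Q) {n : ℕ} (h1 : g ^ p = 1) (h2 : g ^ 2 ^ n = 1) : g = 1 := by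
  have hc : Nat.Coprime p (2 ^ n) := Nat.Coprime.pow_right _ (Nat.coprime_two_right.2 h.odd)
  have := Nat.dvd_gcd (orderOf_dvd_of_pow_eq_one h1) (orderOf_dvd_of_pow_eq_one h2)
  rw [hc, Nat.dvd_one] at this
  exact orderOf_eq_one_iff.1 this

theorem t1_pow (hR : IsPGroup 2 R) (hg : g ∈ R) : ∃ n : ℕ, g ^ 2 ^ n = 1 := by
  obtain ⟨n, hn⟩ := hR ⟨g, hg⟩
  exact ⟨n, by simpa using congrArg Subtype.val hn⟩

theorem Fam.t1_QR (h : Fam p Q) (hR : IsPGroup 2 R) (hx : x ∈ Q a) (hr : x ∈ R) : x = 1 := by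
  obtain ⟨n, hn⟩ := t1_pow hR hr
  exact h.t1_one (h.pow_eq hx) hn

theorem Fam.t1_eq (h : Fam p Q) (hR : IsPGroup 2 R) (hx : x ∈ Q a) (hy : y ∈ Q b)
    (hr : x⁻¹ * y ∈ R) (hc : Commute x y) : x = y := by
  obtain ⟨n, hn⟩ := t1_pow hR hr
  have : (x⁻¹ * y) ^ p = 1 := by
    rw [hc.inv_left.mul_pow, inv_pow, h.pow_eq hx, h.pow_eq hy]; simp
  have := h.t1_one this hn
  exact inv_mul_eq_one.1 this

theorem Fam.t1_inv (h : Fam p Q) (hk : k ∈ Kg Q a b) (hc : c ∈ Li Q a b) : k • c ∈ Li Q a b :=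
  h.N_inv (Kg_le_Ng Q a b hk) hc

theorem t1_left (hx : x ∈ Q a) : x ∈ Kg Q a b := mem_sup_left hx

theorem t1_right (hx : x ∈ Q b) : x ∈ Kg Q a b := mem_sup_right hx

theorem St.t1_H0 (h : St p Q) (hab : a ≠ b) (hx : x ∈ Q a) (hy : y ∈ Q b) (h1 : x ≠ 1)
    (e : x • d = y • d) : d ∈ Li Q a b := by
  by_cases ha : a = d
  · exact ha ▸ left_mem_Li Q a b
  by_cases hb : b = d
  · exact hb ▸ right_mem_Li Q a b
  have hne : d ≠ x • d := fun e' => h1 (h.sr a d (Ne.symm ha) x hx e'.symm)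
  have m1 : x • d ∈ Li Q a d := h.toFam.t1_inv (t1_left hx) (right_mem_Li Q a d)
  have m2 : x • d ∈ Li Q b d := e ▸ h.toFam.t1_inv (t1_left hy) (right_mem_Li Q b d)
  have e1 := h.L_eq ha (right_mem_Li Q a d) m1 hne
  have e2 := h.L_eq hb (right_mem_Li Q b d) m2 hne
  have hb' : b ∈ Li Q a d := by rw [← e1, e2]; exact left_mem_Li Q b d
  rw [h.L_eq ha (left_mem_Li Q a d) hb' hab]
  exact right_mem_Li Q a d

/-- H: a quotient `x⁻¹ y` in `R` has no fixed point -/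
theorem St.t1_H (h : St p Q) (hab : a ≠ b) (A : Af Q a b R) (hx : x ∈ Q a) (hy : y ∈ Q b)
    (h1 : x ≠ 1) (hr : x⁻¹ * y ∈ R) (d : Ω) : (x⁻¹ * y) • d ≠ d := by
  intro e
  have e' : x • d = y • d := by
    rw [mul_smul, inv_smul_eq_iff] at e; exact e.symm
  have hw := A.ker _ hr d (h.t1_H0 hab hx hy h1 e') e
  have hc := mem_Wg.1 hw x (t1_left hx)
  have hc' : Commute x y := by
    have : y = x * (x⁻¹ * y) := by group
    rw [this]; exact (Commute.refl x).mul_right hc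
  have := h.toFam.t1_eq A.two hx hy hr hc'
  exact hab (h.toFam.eq_of_mem hx (this ▸ hy) h1)

theorem St.t1_Af (h : St p Q) (hab : a ≠ b) (A : Af Q a b R) (hc : c ∈ Li Q a b)
    (hd : d ∈ Li Q a b) (hcd : c ≠ d) : Af Q c d R := by
  have eK := h.K_eq hab hc hd hcd
  have eL := h.L_eq hab hc hd hcd
  have eN := h.N_eq hab hc hd hcd
  have eW := h.W_eq hab hc hd hcd
  exact ⟨A.two, eK ▸ A.le, eN ▸ A.nrm, by rw [eK, eL]; exact A.sup, eL ▸ A.tr,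
    by rw [eL, eW]; exact A.ker, eW ▸ A.sq⟩

theorem Af.t1_phi (A : Af Q a b R) (hk : x ∈ Kg Q a b) (hc : c ∈ Li Q a b) :
    ∃ y ∈ Q c, x⁻¹ * y ∈ R := by
  obtain ⟨y, hy, e⟩ := A.sup c hc x hk
  exact ⟨y, hy, by simpa using inv_mem e⟩

/-- rep: every element of `x R` is `y z` -/
theorem St.t1_rep (h : St p Q) (hab : a ≠ b) (A : Af Q a b R) (hx : x ∈ Q a) (h1 : x ≠ 1)
    {r : G} (hr : r ∈ R) :
    ∃ c ∈ Li Q a b, ∃ y ∈ Q c, ∃ z ∈ R, z ∈ Wg Q a b ∧ x * r = y * z := by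
  choose φ hφ hR using fun c : Li Q a b => A.t1_phi (t1_left hx) c.2
  let f : Li Q a b → Li Q a b := fun c =>
    ⟨(x⁻¹ * φ c) • a, h.toFam.t1_inv (A.le (hR c)) (left_mem_Li Q a b)⟩
  have hinj : Function.Injective f := by
    intro c c' e
    by_contra hne
    have hne' : (c : Ω) ≠ c' := fun e => hne (Subtype.ext e)
    have e1 : (x⁻¹ * φ c) • a = (x⁻¹ * φ c') • a := congrArg Subtype.val e
    have hφ1 : φ c ≠ 1 := fun e0 => h1 (h.toFam.t1_QR A.two hx (by simpa [e0] using hR c))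
    refine h.t1_H hne' (h.t1_Af hab A c.2 c'.2 hne') (hφ c) (hφ c') hφ1 ?_ a ?_
    · have := mul_mem (inv_mem (hR c)) (hR c')
      simpa [mul_assoc] using this
    · rw [mul_smul, mul_smul, smul_left_cancel_iff] at e1
      rw [mul_smul, ← e1, inv_smul_smul]
  obtain ⟨c, hc⟩ := Finite.injective_iff_surjective.1 hinj
    ⟨r • a, h.toFam.t1_inv (A.le hr) (left_mem_Li Q a b)⟩
  have e1 : (x⁻¹ * φ c) • a = r • a := congrArg Subtype.val hc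
  have hz : (x⁻¹ * φ c)⁻¹ * r ∈ R := mul_mem (inv_mem (hR c)) hr
  refine ⟨c, c.2, φ c, hφ c, _, hz, A.ker _ hz a (left_mem_Li Q a b) ?_, by group⟩
  rw [mul_smul, ← e1, inv_smul_smul]

/-- C1: trivial holonomy -/
theorem St.t1_C1 (h : St p Q) {R' : Subgroup G} {y' : G} (hab : a ≠ b) (hbc : b ≠ c)
    (A : Af Q a b R) (A' : Af Q b c R') (hx : x ∈ Q a) (hy : y ∈ Q b) (hy' : y' ∈ Q c) (h1 : x ≠ 1)
    (hr : x⁻¹ * y ∈ R) (hw : w * w = 1) (hc : Commute (y⁻¹ * y') w)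
    (e : (x⁻¹ * y) * (y⁻¹ * y') * (x⁻¹ * y)⁻¹ = (y⁻¹ * y')⁻¹ * w) : y⁻¹ * y' ∈ R' := by
  have hk : y⁻¹ * y' ∈ Kg Q b c := mul_mem (inv_mem (t1_left hy)) (t1_right hy')
  generalize y⁻¹ * y' = k at *
  obtain ⟨x', hx', hr'⟩ := A'.sup b (left_mem_Li Q b c) k hk
  by_cases h0 : x' = 1
  · simpa [h0] using hr'
  obtain ⟨d, hd, g, hg, z, hz, hzW, e1⟩ := h.t1_rep hbc A' hx' h0 hr'
  rw [mul_inv_cancel_left] at e1
  by_cases hg1 : g = 1
  · simpa [e1, hg1] using hz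
  exfalso
  obtain ⟨n, hn⟩ := t1_pow A'.two hz
  have hgz : Commute g z := mem_Wg.1 hzW g (hd hg)
  have e2 : k ^ 2 ^ (n + 1) = g ^ 2 ^ (n + 1) := by
    rw [e1, hgz.mul_pow, pow_succ 2 n, pow_mul z, hn]; simp
  have hne : g ^ 2 ^ (n + 1) ≠ 1 := fun e0 => hg1 (h.toFam.t1_one (h.toFam.pow_eq hg) e0)
  have e3 : (x⁻¹ * y) * g ^ 2 ^ (n + 1) * (x⁻¹ * y)⁻¹ = (g ^ 2 ^ (n + 1))⁻¹ := by
    rw [← e2, ← conj_pow, e, hc.inv_left.mul_pow, inv_pow, pow_succ' 2 n, pow_mul w, sq w, hw]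
    simp
  have m1 := h.cj (x⁻¹ * y) d _ (pow_mem hg (2 ^ (n + 1)))
  rw [e3] at m1
  exact h.t1_H hab A hx hy h1 hr d
    (h.toFam.eq_of_mem m1 (inv_mem (pow_mem hg _)) (inv_ne_one.2 hne))

end H97.CYN
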